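import Cfsg.Agent.H87.Cen
import Cfsg.Agent.H87.Glue

/-! Maximal Brauer pairs of the block dominated modulo a central `p`-subgroup. -/

set_option autoImplicit false
set_option linter.unusedSectionVars false

open MonoidAlgebra Subgroup

namespace Cfsg.Agent.H35

open Cfsg Cfsg.Agent.H87 Cfsg.Agent.H32 Cfsg.Agent.H86 Cfsg.Agent.H34

section Alg

variable {k : Type*} [Field k] {G : Type*} [Group G] [Finite G] {p : ℕ} [hp : Fact p.Prime]
  {Z : Subgroup G} [Z.Normal] {a b d e : k[G]} {P H : Subgroup G} {g : G}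

variable (p) in
/-- Elements of the group algebra supported on regular elements. -/
def RS {G : Type*} [Group G] (a : k[G]) : Prop := ∀ x, a.coeff x ≠ 0 → ¬ p ∣ orderOf x

local notation "π" => QuotientGroup.mk' Z

theorem exists_of_coeff_up {K : Type*} [Group K] (f : G →* K) {q : K}
    (h : (up f a).coeff q ≠ 0) : ∃ g, f g = q ∧ a.coeff g ≠ 0 := by
  classical
  obtain ⟨g, hg, h1⟩ := Finset.mem_image.1 (Finsupp.mapDomain_support (Finsupp.mem_support_iff.2 h))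
  exact ⟨g, h1, Finsupp.mem_support_iff.1 hg⟩

theorem supp_up {K : Type*} [Group K] (f : G →* K) (h : Supp H a) : Supp (H.map f) (up f a) :=
  fun q hq => by
  by_contra h1
  obtain ⟨g, rfl, h2⟩ := exists_of_coeff_up f h1
  exact hq (mem_map_of_mem f (h.mem h2))

theorem RS.up (ha : RS p a) : RS p (up π a) := fun q hq => by
  obtain ⟨g, rfl, h1⟩ := exists_of_coeff_up _ hq
  exact regular_mk (ha g h1)

theorem exists_reg {q : G ⧸ Z} (hq : ¬ p ∣ orderOf q) : ∃ g, ¬ p ∣ orderOf g ∧ π g = q := by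
  obtain ⟨g, rfl⟩ := QuotientGroup.mk'_surjective Z q
  obtain ⟨j, hj⟩ := exists_pow_eq_self_of_coprime (n := p ^ (orderOf g).factorization p)
    ((hp.out.coprime_iff_not_dvd.2 hq).pow_left _)
  exact ⟨(g ^ _) ^ j, fun h => not_dvd_orderOf_pow g (h.trans (orderOf_pow_dvd j)), by
    rw [map_pow, map_pow, hj]⟩

theorem RS.ext {a b : k[G ⧸ Z]} (ha : RS p a) (hb : RS p b)
    (h : ∀ g, ¬ p ∣ orderOf g → a.coeff (π g) = b.coeff (π g)) : a = b := ext_coeff fun q => by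
  by_cases hq : p ∣ orderOf q
  · rw [of_not_not (mt (ha q) (not_not.2 hq)), of_not_not (mt (hb q) (not_not.2 hq))]
  · obtain ⟨g, hg, rfl⟩ := exists_reg hq
    exact h g hg

theorem RS.Br {G : Type*} [Group G] {a : k[G]} (ha : RS p a) (P : Subgroup G) : RS p (Br P a) :=
  fun x hx => ha x fun h => hx (by
    by_cases h1 : x ∈ Ce P
    exacts [(coeff_Br_of_mem a h1).trans h, coeff_Br_of_not_mem a h1])

variable (hZ : CZ p Z)
include hZ

theorem coeff_up_reg (ha : RS p a) (hg : ¬ p ∣ orderOf g) : (up π a).coeff (π g) = a.coeff g := by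
  refine Finsupp.mapDomain_apply' {x | ¬ p ∣ orderOf x} _
    (fun x hx => ha x (Finsupp.mem_support_iff.1 hx)) (fun x hx y hy h => ?_) hg
  have h1 : x⁻¹ * y ∈ Z := QuotientGroup.eq.1 h
  have h2 : Commute x (x⁻¹ * y) := mem_center_iff.1 (hZ.cen h1) x
  refine inv_mul_eq_one.1 (H33.eq_one_of_pElt_of_regular (H86.pElt_of_mem hZ.pgp h1)
    (H33.regular_mul hp.out ?_ (by rwa [orderOf_inv]) hy))
  simpa using (Commute.refl x).inv_left.mul_right h2.inv_left

theorem mk_mem_Ce (hg : ¬ p ∣ orderOf g) : π g ∈ Ce (P.map π) ↔ g ∈ Ce P := by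
  refine ⟨fun h => mem_Ce_of_comm hZ.pgp hg (mem_Ce.2 fun z hz =>
    (mem_center_iff.1 (hZ.cen hz) g).symm) fun y hy => (QuotientGroup.eq_one_iff _).1 ?_,
    fun h => mem_Ce.2 ?_⟩
  · have h1 := mem_Ce.1 h _ (mem_map_of_mem _ hy)
    change π _ = 1
    rw [map_mul, map_mul, map_mul, ← h1, map_inv, map_inv, mul_inv_cancel_right, mul_inv_cancel]
  · rintro _ ⟨y, hy, rfl⟩
    rw [← map_mul, mem_Ce.1 h y hy, map_mul]

theorem Br_up_reg (ha : RS p a) : Br (P.map π) (up π a) = up π (Br P a) :=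
  (ha.up.Br _).ext (ha.Br P).up fun g hg => by
    rw [coeff_up_reg hZ (ha.Br P) hg]
    by_cases h1 : g ∈ Ce P
    · rw [coeff_Br_of_mem _ h1, coeff_Br_of_mem _ ((mk_mem_Ce hZ hg).2 h1), coeff_up_reg hZ ha hg]
    · rw [coeff_Br_of_not_mem _ h1, coeff_Br_of_not_mem _ (mt (mk_mem_Ce hZ hg).1 h1)]

variable [CharP k p] (hG : Good p k G) (hQ : Good p k (G ⧸ Z))
include hG hQ

theorem blk_up_quot {L : Subgroup (G ⧸ Z)} (hd : Blk (L.comap π) (L.comap π) d) :
    Blk L L (up π d) := by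
  classical
  have hL := map_comap_eq_self_of_surjective (QuotientGroup.mk'_surjective Z) L
  have h1 : RS p d := hG.reg _ _ hd
  refine ⟨⟨hL ▸ supp_up _ hd.supp, fun t ht => ?_⟩, hd.idem.map _, fun h0 => hd.ne_zero
    (ext_coeff fun x => ?_), fun f hf hi => ?_⟩
  · obtain ⟨t, rfl⟩ := QuotientGroup.mk'_surjective Z t
    rw [cj_up, hd.inv t ht]
  · by_contra h2
    exact h2 (by rw [← coeff_up_reg hZ h1 (h1 x h2), h0]; rfl)
  let z : k[G] := H87.ofFun fun g => if p ∣ orderOf g then 0 else f.coeff (π g)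
  have h2 : RS p z := fun x hx h2 => hx (by simp [z, h2])
  have h3 : up π z = f := h2.up.ext (fun x => hQ.reg_of_idem hf hi) fun g hg => by
    rw [coeff_up_reg hZ h2 hg]; simp [z, hg]
  have h4 : z ∈ fix k (L.comap π) (L.comap π) := ⟨fun x hx => by
    simp only [z, H87.coeff_ofFun, hf.1 _ hx, ite_self],
    inv_of_coeff fun t ht x => by
      simp only [z, H87.coeff_ofFun, map_mul, map_inv, hf.2.coeff_conj ht,
        show orderOf (t * x * t⁻¹) = orderOf x from (MulAut.conj t).orderOf_eq x]⟩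
  rcases hd.local (isComm_fix le_rfl) h4 with h5 | ⟨u, -, h5⟩
  · have h6 := h5.map (up π)
    rw [map_mul, h3] at h6
    have h7 : Commute f (up π d) := by
      rw [← h3, Commute, SemiconjBy, ← map_mul, fix_comm le_rfl h4 hd.mem, map_mul]
    exact .inl ((hi.mul_of_commute h7 (hd.idem.map _)).eq_zero_of_isNilpotent h6)
  · exact .inr (by rw [← h5, map_mul, h3, ← mul_assoc, hi.eq])

theorem exists_pair_quot (hb : Blk ⊤ ⊤ b) (hm : BPair p ⊤ ⊤ b P e) (hZP : Z ≤ P) :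
    ∃ f, BPair p ⊤ ⊤ (up π b) (P.map π) f ∧
      (∀ n ∈ No P ⊓ stab e, π n ∈ No (P.map π) ⊓ stab f) ∧
      ∀ m ∈ No (P.map π) ⊓ stab f, ∃ n ∈ No P ⊓ stab e, π n * m⁻¹ ∈ Ce (P.map π) := by
  have hs := QuotientGroup.mk'_surjective Z
  set K := (Ce (P.map π)).comap π
  have hN : ∀ n, π n ∈ No (P.map π) ↔ n ∈ No P := fun n => by
    rw [mem_No_iff_cjS, mem_No_iff_cjS, ← H87.map_cjS, map_eq_map_iff, QuotientGroup.ker_mk',
      sup_eq_left.2 hZP, sup_eq_left.2 fun z hz => mem_cjS.2 (by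
        rw [mem_center_iff.1 (hZ.cen hz), inv_mul_cancel_right]; exact hZP hz)]
  have hCK : Ce P ≤ K := fun g hg => mem_Ce.2 (by
    rintro _ ⟨y, hy, rfl⟩
    rw [← map_mul, mem_Ce.1 hg y hy, map_mul])
  have hKN : K ≤ No P := fun g hg => (hN g).1 (Ce_le_No _ hg)
  have hNK : ∀ n ∈ No P, cjS n K = K := fun n hn => Subgroup.ext fun x => by
    rw [mem_cjS, mem_comap, mem_comap, map_mul, map_mul, map_inv, ← mem_cjS,
      mem_No_iff_cjS.1 (No_le_No_Ce _ ((hN n).2 hn))]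
  have he := hm.pair.blk
  rw [top_inf_eq] at he
  obtain ⟨d, hd, hde⟩ := exists_blk_ge hCK he
  have hd' : ∀ n ∈ No P, Blk (Ce P) K (cj n d) := fun n hn => by
    simpa only [hNK n hn, mem_No_iff_cjS.1 (No_le_No_Ce _ hn)] using hd.cj n
  have h1 := blk_up_quot hZ hG hQ ((hG.blk_iff_of_pQuot hCK le_rfl
    (pQuot_of_regular fun x hx h1 => (mk_mem_Ce hZ h1).1 hx)).1 hd)
  refine ⟨up π d, ⟨⟨hm.pair.pgp.map _, le_No_top _, by rwa [top_inf_eq]⟩, le_top, ?_⟩,
    fun n hn => ⟨(hN n).2 hn.1, mem_stab.2 ?_⟩, fun m hm' => ?_⟩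
  · rw [Br_up_reg hZ (hG.reg _ _ hb), ← map_mul, hd.mul_eq_of_ne_zero
      ⟨supp_Br _ _, (hb.inv.Br P).mono (le_inf le_top hKN)⟩
      (Br_idem hm.pair.pgp (hb.inv.mono le_top) hb.idem) fun h0 => he.ne_zero ?_]
    rw [← hm.br, ← hde, ← mul_assoc, h0, zero_mul]
  · rw [cj_up, (hd' n hn.1).eq_of_mul_ne_zero (isComm_fix hCK) hd fun h0 => he.ne_zero ?_]
    rw [← mem_stab.1 hn.2, ← hde, map_mul, mem_stab.1 hn.2, ← hde, ← mul_assoc, h0, zero_mul]
  · obtain ⟨n, rfl⟩ := hs m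
    have hn := (hN n).1 hm'.1
    have h2 := (hd' n hn).eq_of_mul_ne_zero (isComm_fix hCK) hd fun h0 => h1.ne_zero (by
      rw [← h1.idem.eq]
      nth_rw 1 [← mem_stab.1 hm'.2]
      rw [cj_up, ← map_mul, h0, map_zero])
    obtain ⟨t, ht, h3⟩ := Blk.conj_of_le le_rfl hCK (hKN.trans (No_le_No_Ce _))
      (hKN.trans (No_le_No_Ce _)) hd (e := cj n e)
      (by simpa only [mem_No_iff_cjS.1 (No_le_No_Ce _ hn)] using he.cj n) he
      (by rw [← h2, ← map_mul, hde]) hde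
    exact ⟨t * n, ⟨mul_mem (hKN ht) hn, mem_stab.2 (by rw [cj_mul, h3])⟩, by
      rwa [map_mul, mul_inv_cancel_right]⟩

end Alg

variable {M : Ideal AlgInt} [hMm : M.IsMaximal] {G : Type*} [Group G] [Finite G] {p : ℕ}
  {B : Set (IrrCharacter G)} {P Z : Subgroup G} [Z.Normal] {e : (Res M)[G]}

local notation "π" => QuotientGroup.mk' Z

theorem up_eB (hM : IsPModular p M) (hB : IsPBlock M B) (hZ : CZ p Z) :
    up π (eB M B) = eB M (dom Z B) := by
  have : Fact p.Prime := ⟨hM.1⟩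
  have := Fintype.ofFinite G
  have := Fintype.ofFinite (G ⧸ Z)
  have h1 : RS p (eB M B) := (good hM).reg _ _ (blk_eB hB)
  refine h1.up.ext ((good hM).reg _ _ (blk_eB (hZ.isPBlock_dom hM hB).1)) fun g hg => ?_
  rw [coeff_up_reg hZ h1 hg, coeff_eB, coeff_eB, ← push_blockCoeff_under, push_eq_of_regular hM
    (by rw [QuotientGroup.ker_mk']; exact hZ.pgp) (IsPBlock.closed hB) hg (mem_Ce.2 fun z hz =>
      (mem_center_iff.1 (hZ.cen (QuotientGroup.ker_mk' Z ▸ hz)) g).symm)]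

theorem exists_ctx_quot (h : Ctx M p B P e) (hZ : CZ p Z) (hZP : Z ≤ P) :
    ∃ f, Ctx M p (dom Z B) (P.map π) f ∧ (∀ n ∈ No P ⊓ stab e, π n ∈ No (P.map π) ⊓ stab f) ∧
      ∀ m ∈ No (P.map π) ⊓ stab f, ∃ n ∈ No P ⊓ stab e, π n * m⁻¹ ∈ Ce (P.map π) := by
  have : Fact p.Prime := ⟨h.hM.1⟩
  have := res_charP h.hM
  obtain ⟨f, h1, h2⟩ := exists_pair_quot hZ (good h.hM) (good h.hM) (blk_eB h.hB) h.hm.bpair hZP
  obtain ⟨h3, h4⟩ := hZ.isPBlock_dom h.hM h.hB
  rw [up_eB h.hM h.hB hZ] at h1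
  exact ⟨f, ⟨h.hM, h3, h1.maxPair_of_isDef (isDef_of_isDefectGroup h.hM h3
    (h4 P h.isDefectGroup))⟩, h2⟩

end Cfsg.Agent.H35
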