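import Cfsg.Agent.S4208
import Cfsg.Agent.H34.AbDual

/-! Groups of automorphisms of small `p`-groups. -/

set_option autoImplicit false
set_option linter.unusedSectionVars false
set_option synthInstance.maxSize 2048

open Subgroup

namespace Cfsg.Agent.H35

open Cfsg Cfsg.Agent.H34

variable {A : Type*} [Group A] [Finite A] {Γ : Subgroup (MulAut A)} {γ δ : MulAut A} {p r : ℕ}

/-- The subgroup of fixed points. -/
abbrev fx (Γ : Subgroup (MulAut A)) : Subgroup A := FixedPoints.subgroup Γ A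

theorem mem_fx {x : A} : x ∈ fx Γ ↔ ∀ γ ∈ Γ, γ x = x := Subtype.forall

theorem mem_fx_zpowers {x : A} : x ∈ fx (zpowers γ) ↔ γ x = x :=
  mem_fx.trans (zpowers_le (H := MulAction.stabilizer (MulAut A) x))

theorem fx_eq_top : fx (zpowers γ) = ⊤ ↔ γ = 1 := by
  simp only [eq_top_iff', mem_fx_zpowers, MulEquiv.ext_iff, MulAut.one_apply]

theorem pgp_zpowers {K : Type*} [Group K] {x : K} {n : ℕ} (h : x ^ r ^ n = 1) :
    IsPGroup r (zpowers x) := by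
  rintro ⟨_, k, rfl⟩
  refine ⟨n, Subtype.ext ?_⟩
  rw [coe_pow, coe_one, ← zpow_natCast, ← zpow_mul, mul_comm, zpow_mul, zpow_natCast, h, one_zpow]

theorem inv_zpowers {S : Set A} (h : ∀ x ∈ S, γ x ∈ S) : ∀ δ ∈ zpowers γ, ∀ x ∈ S, δ x ∈ S := by
  intro δ hδ x hx
  obtain ⟨n, rfl⟩ := mem_powers_iff_mem_zpowers.2 hδ
  induction n with
  | zero => simpa using hx
  | succ n ih => simpa [pow_succ'] using h _ (ih (npow_mem_zpowers _ _))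

theorem card_modEq (hr : r.Prime) (hΓ : IsPGroup r Γ) (H : Subgroup A)
    (hH : ∀ γ ∈ Γ, ∀ x ∈ H, γ x ∈ H) : Nat.card H ≡ Nat.card (H ⊓ fx Γ : Subgroup A) [MOD r] := by
  have := Fact.mk hr
  let S : SubMulAction Γ A := ⟨H, fun γ _ hx => hH γ γ.2 _ hx⟩
  have h1 := hΓ.card_modEq_card_fixedPoints S
  rwa [Nat.card_congr (α := MulAction.fixedPoints Γ S) (β := (H ⊓ fx Γ : Subgroup A))
    ⟨fun x => ⟨x.1.1, x.1.2, fun γ => congrArg Subtype.val (x.2 γ)⟩,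
      fun x => ⟨⟨x.1, x.2.1⟩, fun γ => Subtype.ext (x.2.2 γ)⟩, fun _ => rfl, fun _ => rfl⟩] at h1

theorem card_modEq_top (hr : r.Prime) (hΓ : IsPGroup r Γ) :
    Nat.card A ≡ Nat.card (fx Γ) [MOD r] := by
  simpa using card_modEq hr hΓ ⊤ fun _ _ _ _ => trivial

/-- Uniqueness of a Sylow subgroup of prime order. -/
theorem mem_zpowers_of_sylow {K : Type*} [Group K] [Finite K] {L : Subgroup K} (hr : r.Prime)
    {m : ℕ} (h1 : Nat.card L ∣ r * m) (h2 : ¬ r ∣ m) (h3 : ∀ d, d ∣ m → d % r = 1 → d = 1)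
    {g k : K} (hg : g ∈ L) (hk : k ∈ L) (g1 : g ≠ 1) (gr : g ^ r = 1) (kr : k ^ r = 1) :
    k ∈ zpowers g := by
  have := Fact.mk hr
  have h4 : ∀ {x : K} (hx : x ∈ L), x ^ r = 1 → IsPGroup r (zpowers (⟨x, hx⟩ : L)) :=
    fun _ h => pgp_zpowers (n := 1) (Subtype.ext (by simpa using h))
  obtain ⟨S, hS⟩ := (h4 hg gr).exists_le_sylow
  obtain ⟨T, hT⟩ := (h4 hk kr).exists_le_sylow
  have h5 : Nat.card (zpowers (⟨g, hg⟩ : L)) = r := by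
    rw [Nat.card_zpowers, ← orderOf_coe, orderOf_eq_prime gr g1]
  have h6 : Nat.card (Sylow r L) = 1 := h3 _
    ((hr.coprime_iff_not_dvd.2 (not_dvd_card_sylow r L)).symm.dvd_of_dvd_mul_left
      ((S.card_dvd_index.trans (index_dvd_card _)).trans h1))
    (Eq.trans (card_sylow_modEq_one r L) (Nat.mod_eq_of_lt hr.one_lt))
  have := (Nat.card_eq_one_iff_unique.1 h6).1
  obtain ⟨n, hn⟩ := S.2.exists_card_eq
  have h7 : Nat.card S ≤ r := by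
    have h7 := ((hr.coprime_iff_not_dvd.2 h2).pow_left n).dvd_of_dvd_mul_right
      (hn ▸ (card_subgroup_dvd_card S.1).trans h1)
    exact hn ▸ Nat.le_of_dvd hr.pos h7
  have h8 := hT (mem_zpowers _)
  rw [Subsingleton.elim T S, ← eq_of_le_of_card_ge hS (h5 ▸ h7)] at h8
  obtain ⟨j, hj⟩ := h8
  exact ⟨j, congrArg Subtype.val hj⟩

theorem exists_orderOf {K : Type*} [Group K] [Finite K] {L : Subgroup K} (hr : r.Prime)
    (h : r ∣ Nat.card L) : ∃ g ∈ L, g ≠ 1 ∧ g ^ r = 1 := by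
  have := Fact.mk hr
  obtain ⟨g, hg⟩ := exists_prime_orderOf_dvd_card' r h
  rw [← orderOf_coe] at hg
  exact ⟨g, g.2, fun h1 => hr.ne_one (by rw [← hg, h1, orderOf_one]), hg ▸ pow_orderOf_eq_one _⟩

theorem pow_eq_one_of_dvd {K : Type*} [Group K] {L : Subgroup K} {g : K} (hg : g ∈ L) {n : ℕ}
    (h : Nat.card L ∣ n) : g ^ n = 1 :=
  orderOf_dvd_iff_pow_eq_one.1 ((L.orderOf_dvd_natCard hg).trans h)

theorem card_dvd_of_aut (hp : p.Prime) (hA : IsPGroup p A) (hΓ : ¬ p ∣ Nat.card Γ) {s k N : ℕ}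
    (hs : Nat.card A < p ^ (s + 1))
    (H : ∀ r ≤ s, ∏ i ∈ Finset.range r, (p ^ r - p ^ i) ∣ p ^ k * N) : Nat.card Γ ∣ N := by
  have := Fact.mk hp
  obtain ⟨n, hn⟩ := hA.exists_card_eq
  obtain ⟨r, hr⟩ := hA.index (frattini A)
  have h1 : r ≤ s := Nat.lt_succ_iff.1 ((Nat.pow_lt_pow_iff_right hp.one_lt).1
    ((hr ▸ Nat.le_of_dvd Nat.card_pos (index_dvd_card _)).trans_lt hs))
  have h2 := ((card_subgroup_dvd_card Γ).trans (S4208.result hn hr)).trans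
    (mul_dvd_mul_left _ (H r h1))
  rw [← mul_assoc, ← pow_add] at h2
  exact ((hp.coprime_iff_not_dvd.2 hΓ).symm.pow_right _).dvd_of_dvd_mul_left h2

theorem comm_of_card_dvd_sq {K : Type*} [Group K] [Finite K] (hp : p.Prime)
    (h : Nat.card K ∣ p ^ 2) (a b : K) : a * b = b * a := by
  have := Fact.mk hp
  obtain ⟨k, hk, h1⟩ := (Nat.dvd_prime_pow hp).1 h
  rcases hk.lt_or_eq with hk | rfl
  · have : IsCyclic K := isCyclic_of_card_dvd_prime (p := p)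
      (h1 ▸ (pow_dvd_pow p (Nat.lt_succ_iff.1 hk)).trans (pow_one p).dvd)
    exact (IsCyclic.commGroup (α := K)).mul_comm a b
  · exact (IsPGroup.isMulCommutative_of_card_eq_prime_sq h1).is_comm.comm a b

theorem exists_cards (hp : p.Prime) (hA : IsPGroup p A) (F : Subgroup A) {s : ℕ}
    (hs : Nat.card A ≤ p ^ s) : ∃ m i, m + i ≤ s ∧ Nat.card F = p ^ m ∧ F.index = p ^ i ∧
      Nat.card A = p ^ (m + i) ∧ (F ≠ ⊥ → m ≠ 0) ∧ (F ≠ ⊤ → i ≠ 0) := by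
  have := Fact.mk hp
  obtain ⟨m, hm⟩ := (hA.to_subgroup F).exists_card_eq
  obtain ⟨i, hi⟩ := hA.index F
  have h1 : Nat.card A = p ^ (m + i) := by rw [← F.card_mul_index, hm, hi, pow_add]
  exact ⟨m, i, (Nat.pow_le_pow_iff_right hp.one_lt).1 (h1 ▸ hs), hm, hi, h1,
    fun h h2 => h (card_eq_one.1 (by rw [hm, h2, pow_zero])),
    fun h h2 => h (index_eq_one.1 (by rw [hi, h2, pow_zero]))⟩

theorem orb3 (hΓ : IsPGroup 3 Γ) {U : Subgroup A} (hU : Nat.card U = 4)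
    (h1 : ∀ γ ∈ Γ, ∀ x ∈ U, γ x ∈ U) (h2 : U ⊓ fx Γ = ⊥) {u : A} (hu : u ∈ U) (u1 : u ≠ 1)
    (x : A) : (∃ γ ∈ Γ, γ u = x) ↔ x ∈ U ∧ x ≠ 1 := by
  have := Fact.mk Nat.prime_three
  have h3 : MulAction.orbit Γ u ⊆ (U : Set A) \ {1} := by
    rintro _ ⟨γ, rfl⟩
    exact ⟨h1 γ γ.2 u hu, fun h => u1 ((γ : MulAut A).map_eq_one_iff.1 h)⟩
  have h4 : ((U : Set A) \ {1}).ncard = 3 := by
    rw [Set.ncard_diff_singleton_of_mem U.one_mem, ← Nat.card_coe_set_eq]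
    exact congrArg (· - 1) hU
  obtain ⟨n, hn⟩ := hΓ.card_orbit u
  rw [Nat.card_coe_set_eq] at hn
  have h5 := Set.eq_of_subset_of_ncard_le h3 (by
    rw [h4, hn]
    refine Nat.le_self_pow (fun h5 => u1 (mem_bot.1 (h2 ▸ ⟨hu, fun γ => ?_⟩))) 3
    obtain ⟨a, ha⟩ := Set.ncard_eq_one.1 (hn.trans (by rw [h5, pow_zero]))
    have h6 := MulAction.mem_orbit u γ
    have h7 := MulAction.mem_orbit_self (M := Γ) u
    rw [ha] at h6 h7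
    exact h6.trans h7.symm)
  exact ⟨fun ⟨γ, hγ, h6⟩ => h3 ⟨⟨γ, hγ⟩, h6⟩, fun h6 => by
    obtain ⟨γ, h7⟩ : x ∈ MulAction.orbit Γ u := h5 ▸ h6
    exact ⟨γ, γ.2, h7⟩⟩

/-- The action of `C₃ × C₃` on an elementary abelian group of order `16`. -/
structure Grid (Γ : Subgroup (MulAut A)) (V W : Subgroup A) (u v : A) : Prop where
  card : Nat.card A = 16
  iV : V.index = 4
  iW : W.index = 4
  inf : V ⊓ W = ⊥
  ou : ∀ x, (∃ γ ∈ Γ, γ u = x) ↔ x ∈ W ∧ x ≠ 1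
  ov : ∀ x, (∃ γ ∈ Γ, γ v = x) ↔ x ∈ V ∧ x ≠ 1
  ow : ∀ x, (∃ γ ∈ Γ, γ (u * v) = x) ↔ x ∉ V ∧ x ∉ W
  su : ∀ γ ∈ Γ, γ u = u → ∀ x ∈ W, γ x = x
  sv : ∀ γ ∈ Γ, γ v = v → ∀ x ∈ V, γ x = x
  sw : ∀ γ ∈ Γ, γ (u * v) = u * v → ∀ x, γ x = x
  ord : orderOf (u * v) = 2

theorem exists_grid (hA : ∀ a b : A, a * b = b * a) (hc : Nat.card A = 16) (hΓ : IsPGroup 3 Γ)
    (hΓ' : ∀ a ∈ Γ, ∀ b ∈ Γ, a * b = b * a) (hF : fx Γ = ⊥) (hγ : γ ∈ Γ) (h3 : γ ^ 3 = 1)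
    (hV : Nat.card (fx (zpowers γ)) = 4) : ∃ V W u v, Grid Γ V W u v := by
  let : CommGroup A := { mul_comm := hA }
  set V := fx (zpowers γ) with hVd
  have mV : ∀ x, x ∈ V ↔ γ x = x := fun _ => mem_fx_zpowers
  let N : A →* A := MonoidHom.id A * γ.toMonoidHom * (γ * γ).toMonoidHom
  have hN : ∀ x, N x = x * γ x * γ (γ x) := fun _ => rfl
  have g3 : ∀ x, γ (γ (γ x)) = x := fun x => by simpa [pow_succ] using DFunLike.congr_fun h3 x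
  have V4 : ∀ x ∈ V, x ^ 4 = 1 := fun x hx => pow_eq_one_of_dvd hx hV.dvd
  have NV : ∀ x, N x ∈ V := fun x => by
    rw [mV, hN, map_mul, map_mul, g3, mul_comm, mul_assoc]
  have NV' : ∀ x ∈ V, N (x ^ 3) = x := fun x hx => by
    rw [map_pow, hN, (mV x).1 hx, (mV x).1 hx, ← sq, ← pow_succ, ← pow_mul, show 3 * 3 = 4 * 2 + 1 from rfl,
      pow_succ, pow_mul, V4 x hx, one_pow, one_mul]
  have iW : N.ker.index = 4 := by
    rw [index_ker, ← hV, le_antisymm (show N.range ≤ V from fun _ ⟨x, hx⟩ => hx ▸ NV x)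
      fun x hx => ⟨_, NV' x hx⟩]
  have cW : Nat.card N.ker = 4 := by
    have := N.ker.card_mul_index
    rw [iW, hc] at this
    omega
  have iV : V.index = 4 := by
    have := V.card_mul_index
    rw [hV, hc] at this
    omega
  have inf : V ⊓ N.ker = ⊥ := eq_bot_iff.2 fun x hx => by
    rw [mem_bot, ← NV' x hx.1, map_pow, MonoidHom.mem_ker.1 hx.2, one_pow]
  have cm : ∀ σ ∈ Γ, ∀ x, σ (γ x) = γ (σ x) := fun σ hσ x => DFunLike.congr_fun (hΓ' σ hσ γ hγ) x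
  have sV : ∀ σ ∈ Γ, ∀ x ∈ V, σ x ∈ V := fun σ hσ x hx => by rw [mV, ← cm σ hσ, (mV x).1 hx]
  have sW : ∀ σ ∈ Γ, ∀ x ∈ N.ker, σ x ∈ N.ker := fun σ hσ x hx => by
    rw [MonoidHom.mem_ker, hN] at hx ⊢
    rw [← cm σ hσ, ← cm σ hσ, ← map_mul, ← map_mul, hx, map_one]
  have dec : ∀ x, ∃ a ∈ N.ker, ∃ b ∈ V, x = a * b := fun x =>
    ⟨x * (N x ^ 3)⁻¹, by rw [MonoidHom.mem_ker, map_mul, map_inv, NV' _ (NV x), mul_inv_cancel],
      N x ^ 3, pow_mem (NV x) 3, by simp⟩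
  have ex : ∀ U : Subgroup A, Nat.card U = 4 → ∃ u ∈ U, u ≠ 1 := fun U hU =>
    (nontrivial_iff_exists_ne_one U).1 (Finite.one_lt_card_iff_nontrivial.1 (by omega))
  obtain ⟨u, hu, u1⟩ := ex _ cW
  obtain ⟨v, hv, v1⟩ := ex _ hV
  have ou := orb3 hΓ cW sW (by rw [hF, inf_bot_eq]) hu u1
  have ov := orb3 hΓ hV sV (by rw [hF, inf_bot_eq]) hv v1
  have st : ∀ {U : Subgroup A} {a : A}, (∀ x, (∃ γ ∈ Γ, γ a = x) ↔ x ∈ U ∧ x ≠ 1) →
      ∀ σ ∈ Γ, σ a = a → ∀ x ∈ U, σ x = x := fun h σ hσ ha x hx => by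
    by_cases x1 : x = 1
    · rw [x1, map_one]
    obtain ⟨τ, hτ, rfl⟩ := (h x).2 ⟨hx, x1⟩
    exact (DFunLike.congr_fun (hΓ' σ hσ τ hτ) _).trans (congrArg τ ha)
  have sq : ∀ {U : Subgroup A} {a : A}, (∀ x, (∃ γ ∈ Γ, γ a = x) ↔ x ∈ U ∧ x ≠ 1) →
      Nat.card U = 4 → a ∈ U → a ^ 2 = 1 := fun {U a} h hU ha => by
    by_contra h1
    obtain ⟨τ, -, h2⟩ := (h _).2 ⟨pow_mem ha 2, h1⟩
    exact h1 (τ.map_eq_one_iff.1 (by rw [map_pow, h2, ← pow_mul]; exact pow_eq_one_of_dvd ha hU.dvd))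
  have nm : ∀ a ∈ N.ker, ∀ b ∈ V, a ≠ 1 → b ≠ 1 → a * b ∉ V ∧ a * b ∉ N.ker :=
    fun a ha b hb a1 b1 => ⟨fun h => a1 (mem_bot.1 (inf ▸ ⟨(mul_mem_cancel_right hb).1 h, ha⟩)),
      fun h => b1 (mem_bot.1 (inf ▸ ⟨hb, (mul_mem_cancel_left ha).1 h⟩))⟩
  refine ⟨V, N.ker, u, v, hc, iV, iW, inf, ou, ov, fun x => ⟨?_, fun hx => ?_⟩, st ou, st ov,
    fun σ hσ h x => ?_, ?_⟩
  · rintro ⟨σ, hσ, rfl⟩
    rw [map_mul]
    exact nm _ (sW σ hσ u hu) _ (sV σ hσ v hv) (mt σ.map_eq_one_iff.1 u1) (mt σ.map_eq_one_iff.1 v1)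
  · obtain ⟨a, ha, b, hb, rfl⟩ := dec x
    obtain ⟨σ, hσ, rfl⟩ := (ov b).2 ⟨hb, fun h => hx.2 (by rwa [h, mul_one])⟩
    obtain ⟨τ, hτ, h1⟩ := (orb3 (pgp_zpowers (n := 1) h3) cW
      (fun τ hτ => sW τ (zpowers_le.2 hγ hτ)) ((inf_comm _ _).trans inf) (sW σ hσ u hu)
      (mt σ.map_eq_one_iff.1 u1) a).2 ⟨ha, fun h => hx.1 (by rwa [h, one_mul])⟩
    exact ⟨τ * σ, mul_mem (zpowers_le.2 hγ hτ) hσ, by
      rw [MulAut.mul_apply, map_mul, map_mul, h1, mem_fx.1 hb τ hτ]⟩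
  · have h1 : u⁻¹ * σ u = v * (σ v)⁻¹ := by
      rw [inv_mul_eq_iff_eq_mul, ← mul_assoc, eq_mul_inv_iff_mul_eq, ← map_mul, h]
    have h2 : u⁻¹ * σ u = 1 := mem_bot.1 (inf ▸ mem_inf.2 ⟨h1 ▸ V.mul_mem hv
      (V.inv_mem (sV σ hσ v hv)), N.ker.mul_mem (N.ker.inv_mem hu) (sW σ hσ u hu)⟩)
    obtain ⟨a, ha, b, hb, rfl⟩ := dec x
    rw [map_mul, st ou σ hσ (inv_mul_eq_one.1 h2).symm a ha,
      st ov σ hσ (mul_inv_eq_one.1 (h1 ▸ h2)).symm b hb]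
  · have := Fact.mk Nat.prime_two
    exact orderOf_eq_prime (by rw [mul_pow, sq ou cW hu, sq ov hV hv, one_mul])
      fun h => (nm u hu v hv u1 v1).1 (h ▸ one_mem _)

theorem ab16_grp (hA : ∀ a b : A, a * b = b * a) (hp : IsPGroup 2 A) (hc : Nat.card A ≤ 2 ^ 4)
    (h2 : ¬ 2 ∣ Nat.card Γ) (h7 : ¬ 7 ∣ Nat.card Γ) :
    FpfA Γ ∨ (fx Γ).index ≤ 4 ∨ ∃ V W u v, Grid Γ V W u v := by
  refine or_iff_not_imp_left.2 fun hf => ?_
  simp only [FpfA, not_forall, not_or] at hf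
  obtain ⟨γ, hγ, y, hy, γ1, y1⟩ := hf
  have h45 : Nat.card Γ ∣ 5 * 9 := ((Nat.Prime.coprime_iff_not_dvd (by norm_num)).2
    h7).symm.dvd_of_dvd_mul_left (card_dvd_of_aut (s := 4) (k := 6) (N := 7 * (5 * 9))
      Nat.prime_two hp h2 (by omega) fun r hr => by interval_cases r <;> decide)
  have hy' : ∀ n, y ∈ fx (zpowers (γ ^ n)) := fun n =>
    mem_fx_zpowers.2 (mem_fx.1 (mem_fx_zpowers.2 hy) _ (npow_mem_zpowers _ _))
  have nb : ∀ n, fx (zpowers (γ ^ n)) ≠ ⊥ := fun n h => y1 (mem_bot.1 (h ▸ hy' n))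
  have h9 : Nat.card Γ ∣ 3 ^ 2 := by
    refine ((Nat.Prime.coprime_iff_not_dvd (by norm_num)).2 fun h5 => ?_).symm.dvd_of_dvd_mul_left h45
    obtain ⟨δ, hδ, δ1, δ5⟩ := exists_orderOf Nat.prime_five h5
    have uq : ∀ {g k : MulAut A}, g ∈ Γ → k ∈ Γ → g ≠ 1 → g ^ 5 = 1 → k ^ 5 = 1 → k ∈ zpowers g :=
      mem_zpowers_of_sylow Nat.prime_five h45 (by norm_num) fun d hd h => by
        have := Nat.le_of_dvd (by norm_num) hd
        interval_cases d <;> omega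
    have h1 : fx (zpowers δ) = ⊥ := by
      by_contra h1
      obtain ⟨m, i, a1, a2, -, a3, a4, a5⟩ := exists_cards Nat.prime_two hp (fx (zpowers δ)) hc
      have a6 := card_modEq_top Nat.prime_five (pgp_zpowers (n := 1) δ5)
      rw [a2, a3] at a6
      exact (by decide : ∀ m ≤ 4, ∀ i ≤ 4, m + i ≤ 4 → m ≠ 0 → i ≠ 0 →
        ¬ 2 ^ (m + i) ≡ 2 ^ m [MOD 5]) m (by omega) i (by omega) a1 (a4 h1)
          (a5 (mt fx_eq_top.1 δ1)) a6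
    have g9 : γ ^ 9 = 1 := by
      by_contra g9
      exact y1 (mem_bot.1 (h1 ▸ mem_fx_zpowers.2 (mem_fx.1 (hy' 9) _ (uq (pow_mem hγ 9) hδ g9
        (by rw [← pow_mul]; exact pow_eq_one_of_dvd hγ h45) δ5))))
    obtain ⟨k, hk⟩ := mem_powers_iff_mem_zpowers.2 (uq hδ (mul_mem (mul_mem hγ hδ) (inv_mem hγ))
      δ1 δ5 (by rw [conj_pow, δ5, mul_one, mul_inv_cancel]))
    have h3 : ∀ n, γ ^ n * δ * (γ ^ n)⁻¹ = δ ^ k ^ n := fun n => by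
      induction n with
      | zero => simp
      | succ n ih => rw [pow_succ', pow_succ' k, pow_mul, show δ ^ k = _ from hk, conj_pow, ← ih]; group
    have := Fact.mk Nat.prime_five
    have h4 := h3 9
    rw [g9, one_mul, inv_one, mul_one, eq_comm, ← pow_one δ, ← pow_mul, one_mul, pow_eq_pow_iff_modEq,
      orderOf_eq_prime δ5 δ1, Nat.ModEq, Nat.pow_mod] at h4
    have h6 : δ ^ k = δ ^ 1 := by
      rw [pow_eq_pow_iff_modEq, orderOf_eq_prime δ5 δ1, Nat.ModEq]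
      have : k % 5 < 5 := Nat.mod_lt _ (by norm_num)
      generalize k % 5 = j at *
      interval_cases j <;> omega
    have h8 : ∀ x, γ (δ x) = δ (γ x) := fun x => DFunLike.congr_fun
      (mul_inv_eq_iff_eq_mul.1 ((show δ ^ k = _ from hk).symm.trans (h6.trans (pow_one δ)))) x
    have a6 := card_modEq Nat.prime_five (pgp_zpowers (n := 1) δ5) (fx (zpowers γ))
      (inv_zpowers fun x hx => mem_fx_zpowers.2 (by rw [h8, mem_fx_zpowers.1 hx]))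
    obtain ⟨m, i, a1, a2, -, a3, a4, a5⟩ := exists_cards Nat.prime_two hp (fx (zpowers γ)) hc
    have := a5 (mt fx_eq_top.1 γ1)
    rw [h1, inf_bot_eq, card_bot, a2] at a6
    exact (by decide : ∀ m ≤ 3, m ≠ 0 → ¬ 2 ^ m ≡ 1 [MOD 5]) m (by omega)
      (a4 (pow_one γ ▸ nb 1)) a6
  have hΓ : IsPGroup 3 Γ := fun g => ⟨2, orderOf_dvd_iff_pow_eq_one.1 ((orderOf_dvd_natCard g).trans h9)⟩
  obtain ⟨m, i, a1, a2, a7, a3, a4, -⟩ := exists_cards Nat.prime_two hp (fx Γ) hc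
  have a6 := card_modEq_top Nat.prime_three hΓ
  by_cases hF : fx Γ = ⊥
  · obtain ⟨n, n1, n3⟩ : ∃ n, γ ^ n ≠ 1 ∧ (γ ^ n) ^ 3 = 1 := by
      by_cases h : γ ^ 3 = 1
      exacts [⟨1, by simpa, by simpa⟩, ⟨3, h, by rw [← pow_mul]; exact pow_eq_one_of_dvd hγ h9⟩]
    obtain ⟨m, i, a1, a2, -, a3, a4, a5⟩ := exists_cards Nat.prime_two hp (fx (zpowers (γ ^ n))) hc
    have a8 := card_modEq_top Nat.prime_three (pgp_zpowers (n := 1) n3)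
    rw [hF, card_bot, a3] at a6
    rw [a2, a3] at a8
    obtain ⟨rfl, rfl⟩ := (by decide : ∀ m ≤ 4, ∀ i ≤ 4, m + i ≤ 4 → m ≠ 0 → i ≠ 0 →
      2 ^ (m + i) ≡ 1 [MOD 3] → 2 ^ (m + i) ≡ 2 ^ m [MOD 3] → m = 2 ∧ i = 2) m (by omega) i
        (by omega) a1 (a4 (nb n)) (a5 (mt fx_eq_top.1 n1)) a6 a8
    exact .inr (exists_grid hA a3 hΓ (fun a ha b hb => congrArg Subtype.val
      (comm_of_card_dvd_sq Nat.prime_three h9 (⟨a, ha⟩ : Γ) ⟨b, hb⟩)) hF (pow_mem hγ n) n3 a2)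
  · rw [a2, a3] at a6
    exact .inl (a7 ▸ (by decide : ∀ m ≤ 4, ∀ i ≤ 4, m + i ≤ 4 → m ≠ 0 →
      2 ^ (m + i) ≡ 2 ^ m [MOD 3] → 2 ^ i ≤ 4) m (by omega) i (by omega) a1 (a4 hF) a6)

end Cfsg.Agent.H35
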