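import Cfsg.Agent.H87.KB
import Cfsg.Agent.H86.Mat

/-! Families of integral vectors which bound the number of characters of a block. -/

set_option autoImplicit false
set_option linter.unusedSectionVars false

open Finset

namespace Cfsg.Agent.H35

open Cfsg.Agent.H87

universe u

variable {I : Type u} {s : Finset I}

variable (s) in
/-- A family of integral vectors in the space `V` of total norm at most `m N` such that every
nonzero vector of `V` pairs non-trivially with at least `m` of them. -/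
def KP0 (V : (I → ℂ) → Prop) (N : ℕ) : Prop :=
  ∃ (ι : Type u) (S : Finset ι) (n : ι → I → ℤ) (m : ℕ), 0 < m ∧ (∀ i ∈ S, V fun x => n i x) ∧
    (∀ f, V f → (∃ x ∈ s, f x ≠ 0) → ∃ t ⊆ S, m ≤ #t ∧ ∀ i ∈ t, ∑ x ∈ s, f x * n i x ≠ 0) ∧
    ∑ i ∈ S, ∑ x ∈ s, n i x ^ 2 ≤ m * N

theorem KP0.congr {V V' : (I → ℂ) → Prop} {N : ℕ} (h : KP0 s V N) (H : ∀ f, V f ↔ V' f) :
    KP0 s V' N := (funext fun f => propext (H f) : V = V') ▸ h

variable [DecidableEq I]

section form

variable {J : Type*} {T : Finset J} {R : J → J → Prop} [DecidableRel R] {a : J → I → ℤ} {e : ℕ}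
  {ε c : ℤ} {ζ : J → I} {b : I → ℤ}

theorem kp0_of_form (f : Form s T R a ε c ζ b) (h : Gram s T R a e)
    (hX : (s \ T.image ζ).Nonempty) :
    KP0 s (fun v => ∀ l ∈ T, ∑ i ∈ s, v i * a l i = 0) (#T + 1) := by
  classical
  set Y := T.image ζ with hY
  set X := s \ Y with hXd
  have hYs : Y ⊆ s := f.subset
  have ht : (1 : ℤ) ≤ #Y := by exact_mod_cast card_pos.2 (h.nonempty.image ζ)
  have hl : (1 : ℤ) ≤ #X := by exact_mod_cast card_pos.2 hX
  let ρ : Option I → ℤ := fun j => j.elim (#Y * c + ε) b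
  let w : Option I → ℤ := fun j => j.elim #Y fun _ => 1
  let E : Option I → I → ℤ := fun j x => j.elim (if x ∈ Y then 1 else 0) fun y => if x = y then 1 else 0
  have h0 : #Y * c + ε ≠ 0 := fun h0 => by
    have h1 : (#Y : ℤ) = 1 := Int.eq_one_of_dvd_one (by omega) ⟨-(c * ε), by
      linear_combination ε * h0 - f.mul_self⟩
    have h2 := f.two_le h (by rw [h1] at h0; omega)
    rw [← hY] at h2
    omega
  have hρ : ∀ j ∈ X.insertNone, ρ j ≠ 0 := fun j hj => by
    cases j with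
    | none => exact h0
    | some j => exact f.b_ne h (some_mem_insertNone.1 hj)
  have hE : ∀ {A : Type} [Ring A] (v : I → A), ∀ j ∈ X.insertNone, ∑ x ∈ s, v x * E j x =
      j.elim (∑ x ∈ Y, v x) v := fun v j hj => by
    cases j with
    | none => simp [E, inter_eq_right.2 hYs]
    | some j => simp [E, (mem_sdiff.1 (some_mem_insertNone.1 hj)).1]
  have hb : ∀ y ∈ Y, b y = c := fun y hy => by
    obtain ⟨l, hl, rfl⟩ := mem_image.1 hy
    exact f.const l hl
  have hv : ∀ {A : Type} [Ring A] (v : I → A), ∀ l ∈ T, ∑ x ∈ s, v x * a l x =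
      ∑ x ∈ X, v x * b x + (∑ x ∈ Y, v x) * c + v (ζ l) * ε := fun v l hl => by
    rw [sum_congr rfl fun x hx => by rw [f.val l hl x hx, Int.cast_add, mul_add], sum_add_distrib,
      ← sum_sdiff hYs, sum_mul, sum_congr (s₁ := Y) rfl fun y hy => by rw [hb y hy]]
    simp [f.mem l hl, X]
  have hEa : ∀ j ∈ X.insertNone, ∀ l ∈ T, ∑ x ∈ s, (E j x : ℂ) * a l x = ρ j := fun j hj l hl => by
    simp only [mul_comm (E j _ : ℂ)]
    rw [hE _ j hj]
    cases j with
    | none =>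
      have h1 := hv (fun x => (E none x : ℂ)) l hl
      simp only [mul_comm (E none _ : ℂ)] at h1
      rw [hE _ _ hj] at h1
      rw [h1, sum_eq_zero fun x hx => by simp [E, (mem_sdiff.1 hx).2], sum_congr rfl fun x hx => by
        simp only [E, Option.elim, if_pos hx]; rfl]
      simp [E, ρ, show ζ l ∈ Y from mem_image_of_mem _ hl]
    | some j => exact congrArg Int.cast (f.val_of_notMem hl (some_mem_insertNone.1 hj))
  have hEE : ∀ j ∈ X.insertNone, ∀ k ∈ X.insertNone, ∑ x ∈ s, E k x * E j x =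
      if j = k then w j else 0 := fun j hj k hk => by
    have := hE (E k) j hj
    simp only [Int.cast_id] at this
    rw [this]
    rcases j with _ | j <;> rcases k with _ | k
    · simp [E, w]
    · simp [E, (mem_sdiff.1 (some_mem_insertNone.1 hk)).2]
    · simp [E, (mem_sdiff.1 (some_mem_insertNone.1 hj)).2]
    · simp [E, w]
  refine ⟨_, X.insertNone ×ˢ X.insertNone, fun j x => ρ j.2 * E j.1 x - ρ j.1 * E j.2 x, 2 * #X,
    by omega, fun j hj l hl => ?_, fun v hv0 ⟨x, hx, hx0⟩ => ?_, ?_⟩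
  · push_cast
    simp only [sub_mul, mul_assoc, sum_sub_distrib, ← mul_sum, hEa _ (mem_product.1 hj).1 l hl,
      hEa _ (mem_product.1 hj).2 l hl]
    ring
  · let g : Option I → ℂ := fun j => (∑ x ∈ s, v x * E j x) / ρ j
    obtain ⟨l₀, hl₀⟩ := h.nonempty
    have hε : (ε : ℂ) * ε = 1 := by exact_mod_cast f.mul_self
    have h1 : ∀ y ∈ Y, v y = v (ζ l₀) := fun y hy => by
      obtain ⟨l, hl, rfl⟩ := mem_image.1 hy
      have h1 := hv0 l hl
      have h2 := hv0 l₀ hl₀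
      rw [hv v _ ‹_›] at h1 h2
      linear_combination ε * (h1 - h2) - (v (ζ l) - v (ζ l₀)) * hε
    have h2 : ∑ y ∈ Y, v y = #Y * v (ζ l₀) := by rw [sum_congr rfl h1, sum_const, nsmul_eq_mul]
    obtain ⟨j, hj, h3⟩ : ∃ j ∈ X.insertNone, g j ≠ g none := by
      by_contra! h3
      have h4 : ∀ y ∈ X, v y = g none * b y := fun y hy => by
        have h4 := some_mem_insertNone.2 hy
        rw [← h3 _ h4, show g _ = _ / _ from rfl, hE v _ h4]
        exact (div_mul_cancel₀ _ (Int.cast_ne_zero.2 (hρ _ h4))).symm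
      have h5 : #Y * v (ζ l₀) = g none * (#Y * c + ε : ℤ) := by
        rw [show g _ = _ / _ from rfl, hE v _ none_mem_insertNone, ← h2]
        exact (div_mul_cancel₀ _ (Int.cast_ne_zero.2 h0)).symm
      have h6 := hv0 l₀ hl₀
      rw [hv v _ hl₀, h2, sum_congr rfl fun y hy => by rw [h4 y hy, mul_assoc], ← mul_sum] at h6
      have h7 : g none * (#Y * ∑ y ∈ X, b y * b y + (#Y * c + ε) ^ 2 : ℤ) = 0 := by
        push_cast at h5 ⊢
        linear_combination #Y * h6 - (#Y * c + ε) * h5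
      have h8 := (mul_eq_zero.1 h7).resolve_right (Int.cast_ne_zero.2 (ne_of_gt
        (add_pos_of_nonneg_of_pos (mul_nonneg (by omega) (sum_nonneg fun y _ => mul_self_nonneg _))
          (by positivity))))
      rw [h8, zero_mul, mul_eq_zero, or_iff_right (Nat.cast_ne_zero.2 (by omega))] at h5
      by_cases h9 : x ∈ Y
      · exact hx0 ((h1 x h9).trans h5)
      · exact hx0 (by rw [h4 x (mem_sdiff.2 ⟨hx, h9⟩), h8, zero_mul])
    have h4 := two_mul_le_card_ne X.insertNone g hj none_mem_insertNone h3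
    rw [card_insertNone, Nat.add_sub_cancel] at h4
    refine ⟨_, filter_subset _ _, h4, fun j hj h5 => (mem_filter.1 hj).2 ?_⟩
    obtain ⟨h6, h7⟩ := mem_product.1 (mem_filter.1 hj).1
    rw [div_eq_div_iff (Int.cast_ne_zero.2 (hρ _ h6)) (Int.cast_ne_zero.2 (hρ _ h7)), ← sub_eq_zero,
      ← h5, sum_mul, sum_mul, ← sum_sub_distrib]
    exact sum_congr rfl fun x _ => by push_cast; ring
  · have h1 : ∀ j ∈ X.insertNone, ∀ k ∈ X.insertNone, ∑ x ∈ s, (ρ k * E j x - ρ j * E k x) ^ 2 =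
        ρ k ^ 2 * w j + ρ j ^ 2 * w k - 2 * if j = k then ρ j ^ 2 * w j else 0 :=
      fun j hj k hk => by
      have h1 := hEE j hj j hj
      have h2 := hEE k hk k hk
      rw [if_pos rfl] at h1 h2
      rw [← h1, ← h2, show (if j = k then ρ j ^ 2 * ∑ x ∈ s, E j x * E j x else 0) =
        ρ j * ρ k * ∑ x ∈ s, E k x * E j x by rw [hEE j hj k hk]; split_ifs with h3 <;> simp [h3, h2, sq]]
      simp only [mul_sum, ← sum_add_distrib, ← sum_sub_distrib]
      exact sum_congr rfl fun x _ => by ring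
    have h2 := f.norm h
    have h3 : (#Y : ℤ) * e = #T := by exact_mod_cast f.card_mul h
    have h4 := f.mul_self
    rw [← hY, ← hXd] at h2
    rw [sum_product, sum_congr rfl fun j hj => sum_congr rfl (h1 j hj)]
    simp only [sum_sub_distrib, sum_add_distrib, ← mul_sum, ← sum_mul, sum_ite_eq]
    rw [sum_congr rfl fun j hj => if_pos hj]
    simp only [sum_insertNone, ρ, w, Option.elim, mul_one, sum_const, nsmul_eq_mul]
    have h5 : 0 ≤ ∑ x ∈ X, b x ^ 2 := sum_nonneg fun x _ => sq_nonneg _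
    push_cast
    rw [← h3]
    have h6 : (#Y * e + 1 : ℤ) = #Y * ∑ x ∈ X, b x ^ 2 + (#Y * c + ε) ^ 2 := by
      linear_combination -(#Y : ℤ) * h2 + (#Y - 1) * h4
    rw [h6]
    nlinarith [mul_nonneg (mul_nonneg (sub_nonneg.2 ht) (sub_nonneg.2 hl)) h5]

end form

section grid

theorem le_card_ne {ι A : Type*} [DecidableEq A] {Y : Finset ι} (a : ι → A) (hY : #Y = 16) {i j : ι}
    (hi : i ∈ Y) (hj : j ∈ Y) (h : a i ≠ a j) (hr : ∀ k ∈ Y, 4 ≤ #{l ∈ Y | a l = a k}) :
    96 ≤ #{x ∈ Y ×ˢ Y | a x.1 ≠ a x.2} := by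
  classical
  set S := Y.filter fun k => a k = a i
  set T := Y.filter fun k => ¬ a k = a i
  have h1 : #S + #T = #Y := card_filter_add_card_filter_not _
  have h2 : 4 ≤ #S := hr i hi
  have h3 : 4 ≤ #T := (hr j hj).trans (card_le_card (monotone_filter_right _ fun k _ h3 h4 =>
    h (h4.symm.trans h3)))
  have h4 : Disjoint (S ×ˢ T) (T ×ˢ S) := disjoint_left.2 fun x h5 h6 =>
    (mem_filter.1 (mem_product.1 h6).1).2 (mem_filter.1 (mem_product.1 h5).1).2
  refine le_trans ?_ (card_le_card (s := S ×ˢ T ∪ T ×ˢ S) fun x hx => ?_)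
  · rw [card_union_of_disjoint h4, card_product, card_product]
    nlinarith
  · simp only [mem_union, mem_product, mem_filter, S, T] at hx ⊢
    rcases hx with ⟨⟨a1, a2⟩, a3, a4⟩ | ⟨⟨a1, a2⟩, a3, a4⟩
    · exact ⟨⟨a1, a3⟩, fun h5 => a4 (h5.symm.trans a2)⟩
    · exact ⟨⟨a1, a3⟩, fun h5 => a2 (h5.trans a4)⟩

variable {E F : I → I → ℤ} {d : I → ℤ} {l : ℕ}

variable (s E d l) in
/-- Four times a projection of rank `l + 1` fixing `d`. -/
structure Pj : Prop where
  symm : ∀ x y, E x y = E y x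
  sq : ∀ x ∈ s, ∀ z ∈ s, ∑ y ∈ s, E x y * E y z = 4 * E x z
  fix : ∀ x ∈ s, ∑ y ∈ s, E x y * d y = 4 * d x
  pos : ∀ x ∈ s, d x ^ 2 < 4 * E x x
  tr : ∑ x ∈ s, E x x = 4 * (l + 1)

variable (s E) in
/-- The matrix of an equivalence relation with classes of size four. -/
structure Ev : Prop where
  symm : ∀ x y, E x y = E y x
  val : ∀ x ∈ s, ∀ y ∈ s, E x y = 0 ∨ E x y = 1
  refl : ∀ x ∈ s, E x x = 1
  sum : ∀ x ∈ s, ∑ y ∈ s, E x y = 4
  row : ∀ x ∈ s, ∀ y ∈ s, E x y = 1 → ∀ z ∈ s, E x z = E y z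

theorem Pj.three_mul_le (h : Pj s E d l) (hd : ∑ x ∈ s, d x ^ 2 = 16) : 3 * #s ≤ 16 * l := by
  have h1 := H86.card_mul_le_sum (T := s) (f := fun x => 4 * E x x - d x ^ 2) (c := 3) fun x hx => by
    have h1 := h.pos x hx
    rcases Int.even_or_odd' (d x) with ⟨k, h2 | h2⟩ <;> rw [h2] at h1 ⊢
    · have : k ^ 2 < E x x := by nlinarith
      nlinarith
    · have : k ^ 2 + k < E x x := by nlinarith
      nlinarith
  rw [sum_sub_distrib, ← mul_sum, h.tr, hd] at h1
  omega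

theorem Pj.sq' (h : Pj s E d l) {x : I} (hx : x ∈ s) : ∑ y ∈ s, E x y * E x y = 4 * E x x :=
  h.sq x hx x hx ▸ sum_congr rfl fun y _ => by rw [h.symm y]

theorem Pj.eq_four (h : Pj s E d l) {y : I} (hy : y ∈ s) (h1 : d y ^ 2 = 4)
    (h2 : ∀ x ∈ s.erase y, d x ^ 2 = 1) : E y y = 4 := by
  have h3 : ∀ x ∈ s, Even (E x y) := fun x hx => by
    have h3 : ∑ z ∈ s, E x z * (E x z - d z) = 4 * (E x x - d x) := by
      simp only [mul_sub, sum_sub_distrib, h.fix x hx, h.sq' hx]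
    rw [← add_sum_erase _ _ hy] at h3
    have h4 : Even (∑ z ∈ s.erase y, E x z * (E x z - d z)) := even_sum _ fun z hz => by
      rcases sq_eq_one_iff.1 (h2 z hz) with h4 | h4 <;> rw [h4]
      · exact Int.even_mul_pred_self _
      · rw [sub_neg_eq_add]; exact Int.even_mul_succ_self _
    have h5 : Even (d y) := (Int.even_pow' two_ne_zero).1 (h1 ▸ by decide)
    have h6 : Even (E x y * (E x y - d y)) := by
      rw [eq_sub_of_add_eq h3]
      exact Even.sub ⟨2 * (E x x - d x), by ring⟩ h4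
    exact (Int.even_mul.1 h6).elim id fun h7 => by simpa using h7.add h5
  have h4 : ∑ z ∈ s, E y z * (E y z - d y * d z) = 4 * E y y - 16 := by
    simp only [mul_sub, sum_sub_distrib, mul_left_comm _ (d y), ← mul_sum, h.fix y hy, h.sq' hy]
    linear_combination -4 * h1
  have h5 : 0 ≤ ∑ z ∈ s.erase y, E y z * (E y z - d y * d z) := sum_nonneg fun z hz => by
    obtain ⟨k, hk⟩ := h3 z (mem_of_mem_erase hz)
    have h5 : (d y * d z) ^ 2 = 2 ^ 2 := by rw [mul_pow, h1, h2 z hz]; rfl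
    rw [h.symm, hk]
    rcases sq_eq_sq_iff_eq_or_eq_neg.1 h5 with h6 | h6 <;> rw [h6]
    · nlinarith [Int.le_self_sq k]
    · nlinarith [Int.le_self_sq (-k)]
  rw [← add_sum_erase _ _ hy, ← _root_.sq, h1] at h4
  nlinarith [sq_nonneg (E y y - 4)]

theorem Pj.ev (h : Pj s E d 3) (hs : #s = 16) (hd : ∀ x ∈ s, d x * d x = 1) :
    Ev s fun x y => d x * E x y * d y := by
  have h1 : ∀ x ∈ s, E x x = 1 := fun x hx => ((sum_eq_sum_iff_of_le (f := fun _ => 1)
    (g := fun x => E x x) fun x hx => by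
    have := h.pos x hx
    rw [_root_.sq, hd x hx] at this
    omega).1 (by simp [h.tr, hs]) x hx).symm
  have h2 : ∀ x ∈ s, ∑ y ∈ s, d x * E x y * d y = 4 := fun x hx => by
    simp only [mul_assoc, ← mul_sum, h.fix x hx]
    linear_combination 4 * hd x hx
  have h3 : ∀ x ∈ s, ∀ z ∈ s, ∑ y ∈ s, d x * E x y * d y * (d z * E z y * d y) =
      4 * (d x * E x z * d z) := fun x hx z hz => by
    rw [sum_congr rfl fun y hy => show _ = d x * d z * (E x y * E y z) by
      rw [h.symm z]; linear_combination d x * d z * E x y * E y z * hd y hy, ← mul_sum, h.sq x hx z hz]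
    ring
  have h4 : ∀ x ∈ s, d x * E x x * d x = 1 := fun x hx => by rw [h1 x hx, mul_one, hd x hx]
  refine ⟨fun x y => by rw [h.symm]; ring, fun x hx y hy => ?_, h4, h2, fun x hx y hy h5 z hz => ?_⟩
  · have h5 := (sum_eq_zero_iff_of_nonneg (s := s)
      (f := fun y => d x * E x y * d y * (d x * E x y * d y - 1)) fun y _ => by
        nlinarith [Int.le_self_sq (d x * E x y * d y)]).1 (by
      simp only [mul_sub, sum_sub_distrib, mul_one, h2 x hx, h3 x hx x hx, h4 x hx]; rfl) y hy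
    exact (mul_eq_zero.1 h5).imp_right sub_eq_zero.1
  · refine sub_eq_zero.1 (pow_eq_zero_iff two_ne_zero |>.1 ((sum_eq_zero_iff_of_nonneg
      fun z _ => sq_nonneg (d x * E x z * d z - d y * E y z * d z)).1 ?_ z hz))
    simp only [sub_sq]
    simp only [_root_.sq, mul_assoc (2 : ℤ), sum_add_distrib, sum_sub_distrib, ← mul_sum,
      h3 x hx x hx, h3 x hx y hy, h3 y hy y hy, h4 x hx, h4 y hy, h5]
    rfl

theorem Ev.four_le (h : Ev s E) {A : Type*} [DecidableEq A] (g : I → A)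
    (hg : ∀ x ∈ s, ∀ y ∈ s, (∀ z ∈ s, E x z = E y z) → g x = g y) {x : I} (hx : x ∈ s) :
    4 ≤ #{y ∈ s | g y = g x} := by
  have h1 := h.sum x hx
  rw [sum_congr rfl fun y hy => show E x y = if E x y = 1 then 1 else 0 by
    rcases h.val x hx y hy with h1 | h1 <;> simp [h1], sum_boole] at h1
  refine le_trans (by omega) (card_le_card (s := {y ∈ s | E x y = 1}) fun y hy => ?_)
  rw [mem_filter] at hy ⊢
  exact ⟨hy.1, (hg x hx y hy.1 (h.row x hx y hy.1 hy.2)).symm⟩

theorem Ev.mul (h : Ev s E) {x y z : I} (hx : x ∈ s) (hy : y ∈ s) (hz : z ∈ s) :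
    E x z * E y z = E x y * E x z := by
  rcases h.val x hx z hz with h1 | h1
  · simp [h1]
  · rw [h1, h.row x hx z hz h1 y hy, h.symm, one_mul, mul_one]

theorem Ev.sum_sq (h : Ev s E) (hs : #s = 16) {z : I} (hz : z ∈ s) :
    ∑ x ∈ s ×ˢ s, (E x.1 z - E x.2 z) ^ 2 = 96 := by
  have h1 : ∑ x ∈ s, E x z = 4 := by simp only [h.symm _ z, h.sum z hz]
  have h2 : ∑ x ∈ s, E x z ^ 2 = 4 := h1 ▸ sum_congr rfl fun x hx => by
    rcases h.val x hx z hz with h2 | h2 <;> simp [h2]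
  simp only [sum_product, sub_sq, sum_add_distrib, sum_sub_distrib, ← mul_sum, ← sum_mul, h1, h2,
    sum_const, hs, nsmul_eq_mul]
  rfl

theorem kp0_of_ev (hE : Ev s E) (hF : Ev s F) (hs : #s = 16)
    (h : ∀ x ∈ s, ∀ z ∈ s, ∑ y ∈ s, E x y * F z y = 1) (hd : ∀ x ∈ s, d x * d x = 1) :
    KP0 s (fun f => (∀ x ∈ s, ∑ y ∈ s, E x y * (d y * f y) = 0) ∧
      ∀ x ∈ s, ∑ y ∈ s, F x y * (d y * f y) = 0) 16 := by
  classical
  have h' : ∀ x ∈ s, ∀ z ∈ s, ∑ y ∈ s, F x y * E z y = 1 := fun x hx z hz => by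
    simp only [mul_comm (F x _), h z hz x hx]
  have key : ∀ {E F : I → I → ℤ}, Ev s E → (∀ x ∈ s, ∀ z ∈ s, ∑ y ∈ s, E x y * F z y = 1) →
      ∀ a ∈ s ×ˢ s, ∀ b ∈ s ×ˢ s, ∀ x ∈ s,
        ∑ y ∈ s, E x y * ((E a.1 y - E a.2 y) * (F b.1 y - F b.2 y)) = 0 :=
    fun {E F} hE h a ha b hb x hx => by
    rw [mem_product] at ha hb
    rw [sum_congr rfl fun y hy => show _ = (E x a.1 - E x a.2) * (E x y * F b.1 y - E x y * F b.2 y)
      by linear_combination (F b.1 y - F b.2 y) * (hE.mul hx ha.1 hy - hE.mul hx ha.2 hy),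
      ← mul_sum, sum_sub_distrib, h x hx _ hb.1, h x hx _ hb.2, sub_self, mul_zero]
  refine ⟨_, (s ×ˢ s) ×ˢ (s ×ˢ s), fun j y => d y * ((E j.1.1 y - E j.1.2 y) * (F j.2.1 y - F j.2.2 y)),
    96 * 96, by norm_num, fun j hj => ⟨fun x hx => ?_, fun x hx => ?_⟩,
    fun f ⟨h1, h2⟩ ⟨x, hx, hx0⟩ => ?_, ?_⟩
  · rw [← Int.cast_zero, ← key hE h _ (mem_product.1 hj).1 _ (mem_product.1 hj).2 x hx, Int.cast_sum]
    exact sum_congr rfl fun y hy => by
      simp only [← Int.cast_mul]; rw [← mul_assoc (d y), hd y hy, one_mul]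
  · rw [← Int.cast_zero, ← key hF h' _ (mem_product.1 hj).2 _ (mem_product.1 hj).1 x hx,
      Int.cast_sum]
    exact sum_congr rfl fun y hy => by
      simp only [← Int.cast_mul]; rw [← mul_assoc (d y), hd y hy, one_mul, mul_comm (E _ _ - _)]
  · let G : I → I → ℂ := fun a b => ∑ y ∈ s, E a y * F b y * (d y * f y)
    have h3 : ∀ {E F : I → I → ℤ}, Ev s F → (∀ x ∈ s, ∑ y ∈ s, E x y * (d y * f y) = 0) →
        ∀ a ∈ s, ∑ b ∈ s, ∑ y ∈ s, E a y * F b y * (d y * f y) = 0 := fun {E F} hF h1 a ha => by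
      rw [sum_comm, sum_congr rfl fun y hy => show _ = 4 * (E a y * (d y * f y)) by
        rw [← sum_mul, ← mul_sum, ← Int.cast_sum, sum_congr rfl fun b _ => hF.symm b y, hF.sum y hy]
        push_cast; ring, ← mul_sum, h1 a ha, mul_zero]
    have h4 : G x x ≠ 0 := by
      have h4 := h x hx x hx
      rw [← add_sum_erase _ _ hx, hE.refl x hx, hF.refl x hx, mul_one, add_eq_left,
        sum_eq_zero_iff_of_nonneg fun y hy => by
          rcases hE.val x hx y (mem_of_mem_erase hy) with h4 | h4 <;>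
          rcases hF.val x hx y (mem_of_mem_erase hy) with h5 | h5 <;> simp [h4, h5]] at h4
      rw [show G x x = _ from (add_sum_erase _ _ hx).symm, hE.refl x hx, hF.refl x hx,
        sum_eq_zero fun y hy => by rw [← Int.cast_mul, h4 y hy, Int.cast_zero, zero_mul]]
      simpa [hx0] using left_ne_zero_of_mul_eq_one (hd x hx)
    have h5 : ∀ g : I → ℂ, ∑ b ∈ s, g b = 0 → ∀ a ∈ s, g a ≠ 0 → ∃ b ∈ s, g b ≠ g a :=
      fun g h5 a _ h6 => by
      by_contra! h7
      rw [sum_congr rfl h7, sum_const, hs, nsmul_eq_mul] at h5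
      exact h6 (by simpa using h5)
    obtain ⟨a, ha, h6⟩ := h5 (fun a => G a x) (by
      simp only [G, mul_comm (E _ _ : ℂ)]; exact h3 hE h2 x hx) x hx h4
    have h7 := le_card_ne (fun a (b : s) => G a b) hs ha hx (fun h7 => h6 (congrFun h7 ⟨x, hx⟩))
      fun k hk => hE.four_le _ (fun a _ a' _ h7 => funext fun b => sum_congr rfl fun y hy => by
        rw [h7 y hy]) hk
    refine ⟨{j ∈ (s ×ˢ s) ×ˢ (s ×ˢ s) | G j.1.1 j.2.1 - G j.1.2 j.2.1 ≠ G j.1.1 j.2.2 - G j.1.2 j.2.2},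
      filter_subset _ _, ?_, fun j hj h8 => (mem_filter.1 hj).2 ?_⟩
    · rw [card_filter, sum_product]
      refine ((Nat.mul_le_mul_right _ h7).trans (card_nsmul_le_sum _ _ _ fun a ha => ?_)).trans
        (sum_le_sum_of_subset (filter_subset _ _))
      obtain ⟨h8, h9⟩ := mem_filter.1 ha
      obtain ⟨b, h10⟩ := Function.ne_iff.1 h9
      rw [mem_product] at h8
      obtain ⟨c, hc, h11⟩ := h5 (fun b => G a.1 b - G a.2 b) (by
        rw [sum_sub_distrib, h3 hF h1 _ h8.1, h3 hF h1 _ h8.2, sub_self]) b b.2 (sub_ne_zero.2 h10)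
      rw [← card_filter]
      exact le_card_ne (fun b => G a.1 b - G a.2 b) hs hc b.2 h11 fun k hk => hF.four_le _
        (fun b _ b' _ h7 => by
          simp only [G, ← sum_sub_distrib]
          exact sum_congr rfl fun y hy => by rw [h7 y hy]) hk
    · rw [← sub_eq_zero, ← h8]
      simp only [G, ← sum_sub_distrib]
      exact sum_congr rfl fun y _ => by push_cast; ring
  · rw [sum_comm, sum_congr rfl fun y hy => show _ = (96 * 96 : ℤ) by
      rw [sum_product, ← congrArg₂ (· * ·) (hE.sum_sq hs hy) (hF.sum_sq hs hy), sum_mul_sum]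
      exact sum_congr rfl fun a _ => sum_congr rfl fun b _ => by
        rw [mul_pow, mul_pow, _root_.sq (d y), hd y hy, one_mul],
      sum_const, hs]
    rfl

theorem grid {l₁ l₂ : ℕ} (hE : Pj s E d l₁) (hF : Pj s F d l₂) (h1 : l₁ = 1 ∨ l₁ = 3)
    (h2 : l₂ = 1 ∨ l₂ = 3) (h : ∀ x ∈ s, ∀ z ∈ s, ∑ y ∈ s, E x y * F y z = d x * d z)
    (hd : ∑ x ∈ s, d x ^ 2 = 16) (h0 : ∀ x ∈ s, d x ≠ 0)
    (hp : ∀ x ∈ s, 4 * E x x + 4 * F x x ≤ 16 + d x ^ 2) (hl : #s = l + l₁ + l₂ + 1) :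
    l ≤ 3 ∨ KP0 s (fun f => (∀ x ∈ s, ∑ y ∈ s, E x y * f y = 0) ∧
      ∀ x ∈ s, ∑ y ∈ s, F x y * f y = 0) 16 := by
  refine (le_or_gt l 3).imp_right fun h3 => ?_
  have h4 := hE.three_mul_le hd
  have h5 := hF.three_mul_le hd
  obtain rfl : l₁ = 3 := by omega
  obtain rfl : l₂ = 3 := by omega
  have h6 : ∀ x ∈ s, 1 ≤ d x ^ 2 := fun x hx => sq_pos_of_ne_zero (h0 x hx)
  have h6' : ∀ x ∈ s, d x ^ 2 ≠ 1 → 4 ≤ d x ^ 2 := fun x hx h6 => by
    have := h0 x hx
    have : d x ≠ 1 := fun h => h6 (by simp [h])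
    have : d x ≠ -1 := fun h => h6 (by simp [h])
    rcases show 2 ≤ d x ∨ d x ≤ -2 by omega with h7 | h7 <;> nlinarith
  have h7 : ∀ x ∈ s, d x * d x = 1 := fun y hy => by
    by_contra h7
    have h8 := h6' y hy (by rwa [sq])
    have h9 := card_erase_add_one hy
    rw [← add_sum_erase _ _ hy] at hd
    have h10 : ∀ x ∈ s.erase y, d x ^ 2 = 1 := fun x hx => by
      by_contra h10
      have h11 := h6' x (mem_of_mem_erase hx) h10
      have h12 := card_erase_add_one hx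
      have h13 := H86.card_mul_le_sum fun z (hz : z ∈ (s.erase y).erase x) =>
        h6 z (mem_of_mem_erase (mem_of_mem_erase hz))
      rw [← add_sum_erase _ _ hx] at hd
      omega
    rw [H86.sum_eq_card_mul h10] at hd
    have h11 : d y ^ 2 = 4 := by
      have : d y ^ 2 ≤ 6 := by omega
      have : d y ≤ 2 := by nlinarith
      have : -2 ≤ d y := by nlinarith
      nlinarith
    have := hp y hy
    rw [hE.eq_four hy h11 h10, hF.eq_four hy h11 h10, h11] at this
    omega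
  have h8 : #s = 16 := by
    rw [H86.sum_eq_card_mul fun x hx => (sq _).trans (h7 x hx)] at hd
    omega
  have h9 : ∀ {E : I → I → ℤ} (f : I → ℂ), (∀ x ∈ s, ∑ y ∈ s, (d x * E x y * d y : ℤ) * (d y * f y) = 0)
      ↔ ∀ x ∈ s, ∑ y ∈ s, E x y * f y = 0 := fun {E} f => forall₂_congr fun x hx => by
    rw [sum_congr rfl fun y hy => show _ = d x * (E x y * f y) by
      have : (d y : ℂ) * d y = 1 := by exact_mod_cast h7 y hy
      push_cast; linear_combination d x * E x y * f y * this, ← mul_sum,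
      mul_eq_zero_iff_left (Int.cast_ne_zero.2 (h0 x hx))]
  refine (kp0_of_ev (hE.ev h8 h7) (hF.ev h8 h7) h8 (fun x hx z hz => ?_) h7).congr fun f =>
    and_congr (h9 f) (h9 f)
  rw [sum_congr rfl fun y hy => show _ = d x * d z * (E x y * F y z) by
    rw [hF.symm z]; linear_combination d x * d z * E x y * F y z * h7 y hy, ← mul_sum, h x hx z hz]
  linear_combination h7 x hx + d x * d x * h7 z hz

end grid

end Cfsg.Agent.H35
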