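import Cfsg.Agent.H35.AltSq
import Cfsg.Agent.H34.AbMain
import Cfsg.Agent.H87.Std
import Cfsg.Agent.H6.CycSyl
import Cfsg.Agent.H69.UniqueP

/-! Groups with cyclic Sylow `p`-subgroups in which pairs of elements of order `p` generate
`p`-solvable subgroups. -/

set_option autoImplicit false
set_option linter.unusedSectionVars false

namespace Cfsg.Agent.H35

open Subgroup Finset Cfsg

variable {G : Type*} [Group G] [Finite G] {p : ℕ} [hp : Fact p.Prime]

/-- the `p`-parts of the products of powers of `x` and `y` -/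
def PairRel (p : ℕ) (x y : G) : Prop :=
  ∃ s : ZMod p, ∀ (i k : ZMod p) (z : G), IsPPart p (x ^ i.val * y ^ k.val) z →
    IsConj z (x ^ (i + s * k).val)

theorem pairRel_of_top (hP : ∀ P : Sylow p G, IsCyclic P) {x y : G} (hx : orderOf x = p)
    (hy : orderOf y = p) (h : IsPSolvable p G) (hG : closure {x, y} = ⊤) : PairRel p x y := by
  have := H33.pPrimeCore_normal' (p := p) (G := G)
  set π := QuotientGroup.mk' (pPrimeCore p G)
  have hU := H33.not_dvd_card_pPrimeCore (G := G) hp.out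
  have h1 := H22.IsPSolvable.centralizer_pCore_le (H22.IsPSolvable.quotient h (pPrimeCore p G))
    H22.pPrimeCore_quotient_pPrimeCore
  obtain ⟨P⟩ : Nonempty (Sylow p G) := inferInstance
  have h2 := H6.isCyclic_sylow_quotient P (hP P) π (QuotientGroup.mk'_surjective _)
  have h3 := fun R : Sylow p (G ⧸ pPrimeCore p G) => H22.isPGroup_pCore.le_sylow_of_normal R
  have h4 : ∀ a : G, orderOf a = p → orderOf (π a) = p ∧ π a ∈ pCore p _ := fun a ha => by
    have a1 : orderOf (π a) = p := orderOf_eq_prime (by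
      rw [← map_pow, show a ^ p = 1 from ha ▸ pow_orderOf_eq_one a, map_one])
      fun e => hU (ha.symm.dvd.trans
        (Subgroup.orderOf_dvd_natCard _ ((QuotientGroup.eq_one_iff a).mp e)))
    obtain ⟨R, hR⟩ := (IsPGroup.of_card (n := 1)
      ((Nat.card_zpowers _).trans (a1.trans (pow_one p).symm))).exists_le_sylow
    exact ⟨a1, h1 fun b hb => congrArg Subtype.val
      ((h2 R).isMulCommutative.is_comm.comm ⟨b, h3 R hb⟩ ⟨_, hR (mem_zpowers _)⟩)⟩
  obtain ⟨R⟩ : Nonempty (Sylow p (G ⧸ pPrimeCore p G)) := inferInstance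
  have := h2 R
  obtain ⟨k, hk⟩ := H69.mem_zpowers_of_isCyclic (x := (⟨_, h3 R (h4 x hx).2⟩ : R))
    (y := ⟨_, h3 R (h4 y hy).2⟩) (Subtype.ext (by
      rw [← orderOf_coe, Subgroup.coe_pow, (h4 x hx).1.trans (h4 y hy).1.symm]
      exact pow_orderOf_eq_one _))
  have h5 : π y ∈ zpowers (π x) := ⟨k, congrArg Subtype.val hk⟩
  obtain ⟨s, hs⟩ := exists_pow_val (h4 x hx).1 h5
  have h6 : zpowers (π x) = ⊤ := by
    rw [eq_top_iff, ← map_top_of_surjective π (QuotientGroup.mk'_surjective _), ← hG,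
      MonoidHom.map_closure, closure_le]
    rintro _ ⟨_, rfl | rfl, rfl⟩
    exacts [mem_zpowers _, h5]
  obtain ⟨Q, hQ⟩ := exists_sylow_eq_zpowers hx (by
    rw [card_eq_card_quotient_mul_card_subgroup (pPrimeCore p G), ← card_top, ← h6,
      Nat.card_zpowers, (h4 x hx).1, sq]
    exact fun e => hU (Nat.dvd_of_mul_dvd_mul_left hp.out.pos e))
  refine ⟨s, fun i k z hz => ?_⟩
  obtain ⟨g, hg⟩ := H34.exists_conj_mem_sylow' Q (H33.IsPPart.pElt hz)
  obtain ⟨j, hj⟩ := exists_pow_val hx (hQ ▸ hg)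
  have h7 := H33.IsPPart.map hp.out hz π
  rw [map_mul, map_pow, map_pow, hs, ← pow_val_mul (h4 x hx).1, ← pow_val_add (h4 x hx).1] at h7
  have h8 := H33.IsPPart.unique hp.out h7 (H33.isPPart_self hp.out
    (((Nat.dvd_prime_pow hp.out).mp ((orderOf_pow_dvd _).trans
      ((h4 x hx).1.trans (pow_one p).symm).dvd)).imp fun _ h => h.2))
  obtain ⟨l, hl⟩ := h6.ge (mem_top (π g))
  have h9 := congrArg π hj
  rw [map_mul, map_mul, map_inv, h8, ← hl, map_pow,
    ((Commute.refl _).zpow_left l).pow_right _ |>.eq, mul_inv_cancel_right] at h9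
  exact isConj_iff.mpr ⟨g, by rw [hj, pow_val_inj (h4 x hx).1 h9]⟩

theorem pairRel_of (hP : ∀ P : Sylow p G, IsCyclic P) {x y : G} (hx : orderOf x = p)
    (hy : orderOf y = p) (h : IsPSolvable p (closure ({x, y} : Set G))) : PairRel p x y := by
  obtain ⟨P⟩ : Nonempty (Sylow p G) := inferInstance
  obtain ⟨s, hs⟩ := pairRel_of_top
    (H6.isCyclic_sylow_of_isCyclic P (hP P) (closure {x, y}).subtype Subtype.val_injective)
    (x := ⟨x, subset_closure (by simp)⟩) (y := ⟨y, subset_closure (by simp)⟩)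
    ((orderOf_coe _).symm.trans hx) ((orderOf_coe _).symm.trans hy) h (by
      refine map_injective (closure {x, y}).subtype_injective ?_
      simp [MonoidHom.map_closure, Set.image_pair, ← MonoidHom.range_eq_map])
  refine ⟨s, fun i k z hz => ?_⟩
  exact (closure {x, y}).subtype.map_isConj (hs i k ⟨z, H33.IsPPart.mem_of_mem hp.out hz _
    (mul_mem (pow_mem (subset_closure (by simp)) _) (pow_mem (subset_closure (by simp)) _))⟩
    (H33.isPPart_coe_iff.mp hz))

theorem exists_functional {x : G} (hx : orderOf x = p) (h : ∀ y, orderOf y = p → PairRel p x y) :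
    ∃ L : (G → ℂ) →ₗ[ℂ] ℂ, (∀ f, IsClassFunction G f → (∀ g z, IsPPart p g z → f g = f z) →
      L f = ∑ j ∈ (univ : Finset (ZMod p)).erase 1, f (x ^ j.val)) ∧
      ∀ χ : IrrCharacter G, L χ = (∑ j ∈ (univ : Finset (ZMod p)).erase 0,
        (χ : G → ℂ) (x ^ j.val)) / (χ : G → ℂ) 1 * (χ : G → ℂ) x := by
  classical
  have := Fintype.ofFinite G
  set A := univ.filter fun y : G => orderOf y = p with hA
  have hA0 : (A.card : ℂ) ≠ 0 := Nat.cast_ne_zero.mpr (card_ne_zero.mpr ⟨x, by simp [hA, hx]⟩)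
  have h1 : ∀ {y : G} {k : ZMod p}, k ≠ 0 → orderOf y = p → orderOf (y ^ k.val) = p :=
    fun {y k} hk hy => orderOf_eq_prime (by
      rw [← pow_mul, mul_comm, pow_mul, show y ^ p = 1 from hy ▸ pow_orderOf_eq_one y, one_pow])
      fun e => hk (pow_val_inj hy (by simpa using e))
  have h2 : ∀ (F : G → ℂ) (c : ℂ), (∀ y, orderOf y = p → ∑ k ∈ (univ : Finset (ZMod p)).erase 0,
      F (y ^ k.val) = c) → (A.card : ℂ)⁻¹ * (p - 1) * ∑ y ∈ A, F y = c := fun F c hF => by
    have a1 : ∀ k ∈ (univ : Finset (ZMod p)).erase 0, ∑ y ∈ A, F (y ^ k.val) = ∑ y ∈ A, F y :=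
      fun k hk => by
        have hk := ne_of_mem_erase hk
        refine sum_nbij' (· ^ k.val) (· ^ k⁻¹.val) ?_ ?_ ?_ ?_ fun _ _ => rfl <;>
          simp only [hA, mem_filter, mem_univ, true_and]
        exacts [fun _ => h1 hk, fun _ => h1 (inv_ne_zero hk),
          fun y hy => by rw [← pow_val_mul hy, mul_inv_cancel₀ hk, ZMod.val_one, pow_one],
          fun y hy => by rw [← pow_val_mul hy, inv_mul_cancel₀ hk, ZMod.val_one, pow_one]]
    have a2 := sum_congr rfl a1
    rw [sum_comm, sum_congr rfl fun y hy => hF y (mem_filter.mp hy).2] at a2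
    simp only [sum_const, card_erase_of_mem (mem_univ _), card_univ, ZMod.card, nsmul_eq_mul,
      Nat.cast_sub hp.out.one_le, Nat.cast_one] at a2
    rw [mul_assoc, ← a2, inv_mul_cancel_left₀ hA0]
  have h3 : ∀ y, orderOf y = p → ∃ s : ZMod p, s ≠ 0 ∧ (∀ k : ZMod p,
      IsConj (y ^ k.val) (x ^ (s * k).val)) ∧ ∀ (k : ZMod p) z, IsPPart p (x * y ^ k.val) z →
        IsConj z (x ^ (1 + s * k).val) := fun y hy => by
    obtain ⟨s, hs⟩ := h y hy
    have a1 : IsConj y (x ^ s.val) := by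
      simpa [ZMod.val_one] using hs 0 1 y (by
        simpa [ZMod.val_one] using H33.isPPart_self hp.out ⟨1, by simpa using hy⟩)
    refine ⟨s, ?_, fun k => pow_val_mul hx s k ▸ a1.pow _,
      fun k z hz => hs 1 k z (by simpa [ZMod.val_one] using hz)⟩
    rintro rfl
    rw [ZMod.val_zero, pow_zero, isConj_one_left] at a1
    exact hp.out.ne_one (by rw [← hy, a1, orderOf_one])
  refine ⟨((A.card : ℂ)⁻¹ * (p - 1)) • ∑ y ∈ A, LinearMap.proj (x * y), fun f hf hf' => ?_,
    fun χ => ?_⟩ <;> simp only [LinearMap.smul_apply, LinearMap.sum_apply, LinearMap.proj_apply,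
      smul_eq_mul]
  · refine h2 (fun y => f (x * y)) _ fun y hy => ?_
    obtain ⟨s, hs, -, h4⟩ := h3 y hy
    refine sum_nbij' (1 + s * ·) (fun j => (j - 1) / s) (by simp [hs]) (by simp [hs, sub_eq_zero])
      (fun k _ => by simp [hs]) (fun j _ => by simp [mul_div_cancel₀ _ hs]) fun k _ => ?_
    obtain ⟨z, hz⟩ := H33.exists_isPPart hp.out (x * y ^ k.val)
    obtain ⟨g, hg⟩ := isConj_iff.mp (h4 k z hz)
    rw [hf' _ z hz, ← hg, hf]
  · have hc := H5.isClassFunction_of_isIrr χ.2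
    have a1 := H5.sum_mul_irr_mul χ.2 (f := fun g => if orderOf g = p then 1 else 0)
      (fun g k => by simp only [← MulAut.conj_apply, MulEquiv.orderOf_eq]) x
    simp only [ite_mul, one_mul, zero_mul, ← sum_filter] at a1
    rw [sum_congr rfl fun y _ => show (χ : G → ℂ) (x * y) = (χ : G → ℂ) (y * x) by
      rw [← hc (x * y) y]; simp [mul_assoc], a1, ← mul_assoc, ← mul_div_assoc, h2 _ _ fun y hy => ?_]
    obtain ⟨s, hs, h4, -⟩ := h3 y hy
    refine sum_nbij' (s * ·) (· / s) (by simp [hs]) (by simp [hs])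
      (fun k _ => by simp [hs]) (fun j _ => by simp [mul_div_cancel₀ _ hs]) fun k _ => ?_
    obtain ⟨g, hg⟩ := isConj_iff.mp (h4 k)
    rw [← hg, hc]

theorem Setup.not_pairRel (S : Setup G p) (hG : commutator G = ⊤) :
    ¬ ∀ y, orderOf y = p → PairRel p S.x y := fun h => by
  classical
  obtain ⟨L, h1, h2⟩ := exists_functional S.hx h
  simp only [← Setup.xp.eq_1] at h2
  obtain ⟨B, hB⟩ := S.exists_principal
  obtain ⟨φ, hφ⟩ := B.nonempty_Y
  have ht : (B.Y.card : ℂ) * S.V.index = p - 1 := by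
    rw [← Nat.cast_mul, B.cardY', Nat.cast_sub hp.out.one_le, Nat.cast_one]
  have hδ : ∀ χ ∈ B.X, (B.δ χ : ℂ) * B.δ χ = 1 := fun χ hχ => by
    rcases B.δ_sign χ hχ with e | e <;> simp [e]
  have hε : (B.ε : ℂ) * B.ε = 1 := by rcases B.ε_sign with e | e <;> simp [e]
  have hc := fun χ : IrrCharacter G => H5.isClassFunction_of_isIrr χ.2
  set f : G → ℂ := (B.Y.card : ℂ) • ∑ χ ∈ B.X, (B.δ χ : ℂ) • (χ : G → ℂ) -
    (B.ε : ℂ) • ∑ χ ∈ B.Y, (χ : G → ℂ) with hf
  have h3 : ∀ g, f g = if p ∣ orderOf g then (p : ℂ) else 0 := fun g => by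
    simp only [hf, Pi.sub_apply, Pi.smul_apply, Finset.sum_apply, smul_eq_mul]
    split_ifs with hg
    · obtain ⟨k, i, v, hi, e⟩ := S.exists_conj_xp_mul hg
      simp only [← hc _ g k, e]
      rw [B.sumY_inv H5.isIrrCharacter_one S.inertia_one hi, sum_congr rfl fun χ hχ => by
        rw [B.valX hχ hi, hδ χ hχ], sum_const, B.cardX', nsmul_eq_mul]
      linear_combination ht + hε
    · rw [← B.reg φ hφ g hg, sum_congr rfl fun χ hχ => B.eq_on_regular hχ hφ hg, sum_const,
        nsmul_eq_mul]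
      ring
  have h4 := h1 f (fun g k => by simp only [h3, ← MulAut.conj_apply, MulEquiv.orderOf_eq])
    fun g z hz => by
      obtain ⟨k, hk⟩ := H33.IsPPart.pElt hz
      have a1 := H33.IsPPart.eq_one_iff hp.out hz
      refine h3 g ▸ h3 z ▸ if_congr ⟨fun e => hk ▸ dvd_pow_self p fun e' => ?_,
        fun e => by_contra fun e' => ?_⟩ rfl rfl
      · exact a1.mp (orderOf_eq_one_iff.mp (by rw [hk, e', pow_zero])) e
      · exact hp.out.ne_one (by simpa [a1.mpr e'] using e)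
  have h5 : ∑ j ∈ (univ : Finset (ZMod p)).erase 1, f (S.x ^ j.val) = (p - 2) * p := by
    rw [← add_sum_erase _ _ (show (0 : ZMod p) ∈ univ.erase 1 by simp),
      sum_congr rfl fun j hj => show f (S.x ^ j.val) = p by
        rw [h3, if_pos]; simpa [xp] using S.dvd_orderOf_xp_mul (ne_of_mem_erase hj) 1]
    simp [h3, hp.out.ne_one, card_erase_of_mem, Nat.sub_sub, hp.out.two_le]
  have h6 : ∀ χ ∈ B.X, (B.δ χ : ℂ) * L χ = (p - 1) * (B.δ χ / charDegree (χ : G → ℂ)) :=
    fun χ hχ => by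
      rw [h2, sum_congr rfl fun j hj => B.valX' hχ (ne_of_mem_erase hj), ← S.xp_one,
        B.valX' hχ one_ne_zero, cast_degree_irr]
      simp only [sum_const, card_erase_of_mem (mem_univ _), card_univ, ZMod.card, nsmul_eq_mul,
        Nat.cast_sub hp.out.one_le, Nat.cast_one]
      linear_combination (p - 1) * (B.δ χ / charDegree (χ : G → ℂ)) * hδ χ hχ
  have h7 : ∀ χ ∈ B.Y, L χ = -(B.ε * S.V.index / charDegree (φ : G → ℂ)) * (χ : G → ℂ) S.x :=
    fun χ hχ => by
      rw [h2, sum_congr rfl fun j hj => B.valY' hχ (ne_of_mem_erase hj), ← mul_sum,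
        sum_ech_ne_zero, S.card_autH_one, cast_degree_irr, B.degree_Y hχ hφ]
      ring
  have h8 := B.sumY_inv H5.isIrrCharacter_one S.inertia_one one_ne_zero 1
  simp only [hf, map_sub, map_smul, map_sum, smul_eq_mul] at h4
  rw [h5, sum_congr rfl h6, sum_congr rfl h7, ← mul_sum, ← mul_sum] at h4
  simp only [xp_one, OneMemClass.coe_one, mul_one] at h8
  have h9 : ((p : ℝ) - 2) * p + B.ε * S.V.index / charDegree (φ : G → ℂ) = B.Y.card * (p - 1) *
      (1 + ∑ χ ∈ B.X.erase (triv G), B.δ χ / (charDegree (χ : G → ℂ) : ℝ)) := by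
    rw [h8, ← add_sum_erase _ _ hB, B.δ_triv hB, degree_triv] at h4
    refine Complex.ofReal_injective ?_
    push_cast at h4 ⊢
    linear_combination -h4 - B.ε * S.V.index / charDegree (φ : G → ℂ) * hε
  have a1 : ∀ {χ : IrrCharacter G}, χ ≠ triv G → (2 : ℝ) ≤ charDegree (χ : G → ℂ) := fun h => by
    exact_mod_cast two_le_degree hG h
  have a2 := a1 (B.ne_triv_of_mem_Y hB hφ)
  have a3 : 2 ≤ S.V.index := by
    have := B.index_ne_one hB hG
    have := S.V.index_ne_zero_of_finite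
    omega
  have a4 := B.cardY'
  have a5 := B.nonempty_Y.card_pos
  by_cases h3 : p = 3
  · obtain ⟨e1, e2⟩ : B.Y.card = 1 ∧ S.V.index = 2 := by
      have : B.Y.card * S.V.index = 2 := by omega
      constructor <;> nlinarith
    obtain ⟨χ, hχ⟩ := card_eq_one.mp ((B.card_erase hB).trans (by rw [e2]))
    have b1 := B.degree_eq' hB hφ
    have hm := mem_erase.mp (hχ ▸ mem_singleton_self χ)
    have b2 := a1 hm.1
    rw [hχ, sum_singleton] at b1 h9
    have b3 := congrArg (Int.cast : ℤ → ℝ) b1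
    rw [e1, e2, show (p : ℝ) = 3 by exact_mod_cast h3] at h9
    push_cast at b3 h9
    field_simp at h9
    rcases B.ε_sign with e | e <;> rcases B.δ_sign χ hm.2 with e' | e' <;> rw [e, e'] at h9 b3 <;>
      push_cast at h9 b3 <;> nlinarith
  have a6 : 5 ≤ p := hp.out.five_le_of_ne_two_of_ne_three (by rintro rfl; nlinarith) h3
  have a7 : ∑ χ ∈ B.X.erase (triv G), B.δ χ / (charDegree (χ : G → ℂ) : ℝ) ≤
      (S.V.index - 1) / 2 := by
    refine (sum_le_card_nsmul _ _ (1 / 2) fun χ hχ => ?_).trans_eq (by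
      rw [B.card_erase hB, nsmul_eq_mul, Nat.cast_sub (by omega)]; simp [div_eq_mul_inv])
    have := a1 (mem_erase.mp hχ).1
    rw [div_le_div_iff₀ (by linarith) two_pos]
    rcases B.δ_sign χ (mem_erase.mp hχ).2 with e | e <;> rw [e] <;> push_cast <;> linarith
  have a8 : -(S.V.index / 2 : ℝ) ≤ B.ε * S.V.index / charDegree (φ : G → ℂ) := by
    rw [le_div_iff₀ (by linarith)]
    have : (0 : ℝ) ≤ S.V.index := by positivity
    rcases B.ε_sign with e | e <;> simp [e] <;> nlinarith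
  have a9 : (B.Y.card : ℝ) * S.V.index = p - 1 := by
    rw [← Nat.cast_mul, a4, Nat.cast_sub hp.out.one_le, Nat.cast_one]
  have b1 : (5 : ℝ) ≤ p := by exact_mod_cast a6
  have b2 : (2 : ℝ) ≤ S.V.index := by exact_mod_cast a3
  have b3 : (1 : ℝ) ≤ B.Y.card := by exact_mod_cast a5
  have b4 := mul_le_mul_of_nonneg_left a7 (by nlinarith : (0 : ℝ) ≤ B.Y.card * (p - 1))
  have b5 : (B.Y.card : ℝ) * (p - 1) * ((S.V.index - 1) / 2) =
      (p - 1) * ((p - 1) - B.Y.card) / 2 := by linear_combination (p - 1) / 2 * a9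
  have b6 : 2 * (B.Y.card : ℝ) ≤ p - 1 := by nlinarith
  have b7 : (S.V.index : ℝ) ≤ p - 1 := by nlinarith
  nlinarith

theorem sum_pow_val {u : ℂˣ} (h1 : u ^ p = 1) (h2 : u ≠ 1) :
    ∑ j ∈ (univ : Finset (ZMod p)).erase 0, ((u ^ j.val : ℂˣ) : ℂ) = -1 := by
  have h3 := Equiv.sum_comp (Equiv.addLeft (1 : ZMod p)) fun j => ((u ^ j.val : ℂˣ) : ℂ)
  simp only [Equiv.coe_addLeft, pow_val_add (orderOf_eq_prime h1 h2), ZMod.val_one, pow_one,
    Units.val_mul, ← mul_sum] at h3
  rw [sum_erase_eq_sub (mem_univ _), (mul_left_eq_self₀.mp h3).resolve_left (by simpa using h2)]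
  simp

theorem abF_of_isCyclic (P : Sylow p G) (hP : IsCyclic P) :
    H34.AbF P ∧ H34.FpfA (H34.autz (P : Subgroup G)) := by
  have hc : ∀ a b : (P : Subgroup G), a * b = b * a := hP.isMulCommutative.is_comm.comm
  have h := H87.fpf_of_cyclic (Γ := H34.autz (P : Subgroup G)) P.2 fun e => P.not_dvd_index
    ((e.trans (H34.card_autz _).dvd).trans ((relIndex_dvd_of_le_left _ (show (P : Subgroup G) ≤
      centralizer ((P : Subgroup G) : Set G) from fun a ha b hb => congrArg Subtype.val (hc ⟨b, hb⟩ ⟨a, ha⟩))).trans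
      (relIndex_dvd_index_of_le le_normalizer)))
  refine ⟨⟨hc, fun y hy hy1 => le_antisymm (fun n hn w hw => ?_) (le_inf
    (centralizer_le (Set.singleton_subset_iff.mpr hy)) (centralizer_le_normalizer _))⟩, h⟩
  have := (h _ ⟨⟨n, hn.2⟩, rfl⟩ ⟨y, hy⟩ (Subtype.ext (mul_inv_eq_iff_eq_mul.mpr
    (mem_centralizer_singleton_iff.mp hn.1)))).resolve_right fun e => hy1 (congrArg Subtype.val e)
  exact (mul_inv_eq_iff_eq_mul.mp (congrArg (fun γ => ((γ ⟨w, hw⟩ : (P : Subgroup G)) : G)) this)).symm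

theorem not_pairRel_of_sq [IsSimpleGroup G] (P : Sylow p G) (hP : IsCyclic P)
    (h2 : p ^ 2 ∣ Nat.card P) (hm : Nat.card (H34.autz (P : Subgroup G)) ≠ 1) :
    ¬ ∀ x y : G, orderOf x = p → orderOf y = p → PairRel p x y := fun h => by
  classical
  have := Fintype.ofFinite (P : Subgroup G)
  have := Fintype.ofFinite ((P : Subgroup G) →* ℂˣ)
  have := Fintype.ofFinite (H34.autz (P : Subgroup G))
  obtain ⟨M, hM⟩ := H86.exists_isPModular hp.out
  have := hM.2.1
  obtain ⟨hA, hF⟩ := abF_of_isCyclic P hP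
  have hm1 := Nat.le_of_dvd (by have := hp.out.two_le; omega)
    (H87.FpfA.card_dvd_pred (p := p) hF ((dvd_pow_self p two_ne_zero).trans h2))
  have hm2 : 2 ≤ Nat.card (H34.autz (P : Subgroup G)) := by
    have := Nat.card_pos (α := H34.autz (P : Subgroup G))
    omega
  have h3 := Nat.le_of_dvd Nat.card_pos h2
  obtain ⟨q, rfl⟩ : ∃ q, p = q + 1 := ⟨p - 1, by omega⟩
  rw [Nat.add_sub_cancel] at hm1
  obtain ⟨δ, ζ, B0⟩ := hA.exists_abBlk hM (by nlinarith)
  obtain ⟨d, a, B⟩ := B0.exists_abData hA hM (by nlinarith)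
  obtain rfl : d = 0 := by
    have a1 := B.norm_eq hA hM
    have a2 := B0.card_excY hA
    have a3 := single_le_sum (f := fun χ => a χ ^ 2) (fun _ _ => sq_nonneg _) (B.one_mem hA)
    rw [B.a_one hA] at a3
    have a4 : q + 2 ≤ (H34.excY ζ).card := by
      by_contra! a4
      nlinarith [Nat.mul_le_mul (Nat.lt_succ_iff.mp a4) hm1]
    by_contra hd
    have a5 : 1 ≤ d ^ 2 := (one_le_sq_iff_one_le_abs d).mpr (Int.one_le_abs hd)
    zify at a4 hm1
    nlinarith [sq_nonneg (d - δ)]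
  obtain ⟨g, hg⟩ := IsCyclic.exists_ofOrder_eq_natCard (α := P)
  have hw := orderOf_pow_orderOf_div (orderOf_pos g).ne' (hg ▸ h2)
  generalize g ^ _ = w at hw
  set x := w ^ (q + 1) with hx
  have hxo : orderOf x = q + 1 := by rw [hx, orderOf_pow_of_dvd (by omega) (by simp [hw]), hw]; simp [sq]
  obtain ⟨μ, hμ⟩ := H34.exists_lc_ne_one hA.comm
    (show x ≠ 1 from fun e => hp.out.ne_one (by rw [← hxo, e, orderOf_one]))
  have hμ1 : μ ≠ 1 := fun e => hμ (by simp [e])
  have hl1 : μ ^ (q + 1) ≠ 1 := fun e => hμ (by rw [hx, map_pow, ← MonoidHom.pow_apply, e]; rfl)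
  obtain ⟨L, h4, h5⟩ := exists_functional ((orderOf_coe x).trans hxo)
    fun y => h _ y ((orderOf_coe x).trans hxo)
  have h6 : ∀ {φ}, φ ≠ 1 → ∀ j : ZMod (q + 1), j ≠ 0 → (ζ φ : G → ℂ) ((x : G) ^ j.val) =
      δ * ∑ γ : H34.autz (P : Subgroup G), ((φ ((γ : MulAut _) x) ^ j.val : ℂˣ) : ℂ) :=
    fun {φ} hφ j hj => by
      rw [← Subgroup.coe_pow, B.valY hA hφ fun e => hj (pow_val_inj hxo (by simpa using e)),
        ← hF.sum_cpA hφ fun ψ => H34.lc ψ _]
      simp [H34.cpA_apply, H34.lc_apply]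
  have h7 : ∀ γ : H34.autz (P : Subgroup G), μ ((γ : MulAut _) x) ^ (q + 1) = 1 := fun γ => by
    rw [← map_pow, ← map_pow, orderOf_dvd_iff_pow_eq_one.mp hxo.dvd, map_one, map_one]
  have h8 : ∀ j : ZMod (q + 1), j ≠ 0 → (ζ (μ ^ (q + 1)) : G → ℂ) ((x : G) ^ j.val) =
      δ * Nat.card (H34.autz (P : Subgroup G)) := fun j hj => by
    simp [h6 hl1 j hj, h7]
  have h9 : ∑ j ∈ univ.erase (0 : ZMod (q + 1)), (ζ μ : G → ℂ) ((x : G) ^ j.val) =
      -(δ * Nat.card (H34.autz (P : Subgroup G))) := by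
    rw [sum_congr rfl fun j hj => h6 hμ1 j (ne_of_mem_erase hj), ← mul_sum, sum_comm,
      sum_congr rfl fun γ _ => sum_pow_val (h7 γ) fun e => hμ (by
        obtain ⟨k, hk⟩ := H69.mem_zpowers_of_isCyclic (x := (γ : MulAut _) x) (y := x)
          (by rw [MulEquiv.orderOf_eq, pow_orderOf_eq_one])
        rw [← hk, map_zpow, e, one_zpow])]
    simp
  have hc := fun χ : IrrCharacter G => H5.isClassFunction_of_isIrr χ.2
  have a0 := B0.eq_on_regular hM hl1 hμ1 (g := 1) (by simp; omega)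
  have a1 := h4 (ζ (μ ^ (q + 1)) - ζ μ) (fun g k => by simp [hc _ g k]) fun g z hz => by
    by_cases hz1 : z = 1
    · simp [hz1, a0, B0.eq_on_regular hM hl1 hμ1 ((H33.IsPPart.eq_one_iff hp.out hz).mp hz1)]
    obtain ⟨k, hk⟩ := H34.exists_conj_mem_sylow' P (H33.IsPPart.pElt hz)
    have b1 := fun φ hφ => hA.apply_eq hM (B.mem φ hφ) (H33.IsPPart.conj hp.out hz k) hk
      (by simpa using hz1)
    simp only [hc _ _ k] at b1
    simp [b1 _ hl1, b1 _ hμ1]
  have a2 := h8 1 one_ne_zero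
  have a3 := h6 hμ1 1 one_ne_zero
  simp only [ZMod.val_one, pow_one] at a2 a3
  have a4 := sum_congr rfl fun j hj => h8 j (ne_of_mem_erase (s := univ) hj)
  have a5 : ∀ f : ZMod (q + 1) → ℂ, ∑ j ∈ univ.erase 1, f j = ∑ j ∈ univ.erase 0, f j + f 0 - f 1 :=
    fun f => by simp
  rw [map_sub, h5, h5, a5] at a1
  simp only [Pi.sub_apply, sum_sub_distrib, a4, h9, ZMod.val_zero, ZMod.val_one, pow_zero, pow_one,
    a0, a2, sum_const, card_erase_of_mem (mem_univ _), card_univ, ZMod.card, nsmul_eq_mul,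
    Nat.add_sub_cancel] at a1
  have a6 : (q * (δ * Nat.card (H34.autz (P : Subgroup G))) + (ζ μ : G → ℂ) x : ℂ) ≠ 0 := fun e => by
    have b1 := congrArg norm (eq_neg_of_add_eq_zero_left e)
    have b2 := norm_sum_le univ fun γ : H34.autz (P : Subgroup G) => (μ ((γ : MulAut _) x) : ℂ)
    have b3 : ‖(δ : ℂ)‖ = 1 := by rcases B.sign with e | e <;> simp [e]
    simp only [H5.norm_monoidHom, sum_const, card_univ, nsmul_eq_mul, mul_one,
      ← Nat.card_eq_fintype_card] at b2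
    rw [norm_neg, a3] at b1
    simp only [norm_mul, b3, Complex.norm_natCast, one_mul] at b1
    rw [← b1] at b2
    have : q * Nat.card (H34.autz (P : Subgroup G)) ≤ Nat.card (H34.autz (P : Subgroup G)) := by
      exact_mod_cast b2
    nlinarith
  have a7 : (ζ μ : G → ℂ) 1 ≠ 0 := by rw [cast_degree_irr]; exact_mod_cast (degree_pos _).ne'
  have a8 := H5.eq_one_of_simple_of_apply_eq (ζ _).2
    (fun e => B0.ne_oneIrr hA B.big hl1 (Subtype.ext e)) (g := x) (by
      rw [a0, a2]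
      refine mul_left_cancel₀ a6 ?_
      field_simp at a1
      linear_combination a1)
  exact hp.out.ne_one (by rw [← hxo, ← orderOf_coe, a8, orderOf_one])

theorem isPSolvable_of_simple [IsSimpleGroup G] (hP : ∀ P : Sylow p G, IsCyclic P)
    (h : ∀ x y : G, orderOf x = p → orderOf y = p → PairRel p x y) : IsPSolvable p G := by
  obtain ⟨P⟩ : Nonempty (Sylow p G) := inferInstance
  by_cases hm : Nat.card (H34.autz (P : Subgroup G)) = 1
  · rw [H34.card_autz, relIndex_eq_one] at hm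
    exact H22.isPSolvable_of_hasNormalPComplement
      (H3.hasNormalPComplement_of_normalizer_le_centralizer P hm)
  by_cases h2 : p ^ 2 ∣ Nat.card G
  · exact absurd h (not_pairRel_of_sq P (hP P) (P.pow_dvd_card_of_pow_dvd_card h2) hm)
  by_cases h1 : p ∣ Nat.card G
  swap
  · exact H22.isPSolvable_of_coprime ((Nat.Prime.coprime_iff_not_dvd hp.out).mpr h1).symm
  by_cases h3 : (Nat.card G).Prime
  · exact H22.isPSolvable_of_isPGroup (IsPGroup.of_card (n := 1)
      (by rw [pow_one, (Nat.prime_dvd_prime_iff_eq hp.out h3).mp h1]))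
  obtain ⟨x, hx⟩ := exists_prime_orderOf_dvd_card' p h1
  obtain ⟨S, rfl⟩ := exists_setup hx h2
  exact absurd (fun y => h _ y hx) (S.not_pairRel (simple_perfect h3).1)

end Cfsg.Agent.H35
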