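import Cfsg.Agent.H86.Var
import Cfsg.Agent.H86.Wat

/-! Fourier analysis on an abelian group with an involutory automorphism fixing a four-group. -/

set_option autoImplicit false
set_option linter.unusedSectionVars false

open Subgroup ComplexConjugate

namespace Cfsg.Agent.H35

open Cfsg Cfsg.Agent.H86 Cfsg.Agent.H87 Cfsg.Agent.H34

theorem vr_nonneg_diff {ι : Type*} [DecidableEq ι] (J : Finset ι) (c : ι → ℤ) {n : ℤ}
    (hn : (J.card : ℤ) = 2 * n) (h0 : 0 < n) {i j : ι} (hi : i ∈ J) (hj : j ∈ J) (hij : i ≠ j) :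
    n * (c i - c j) ^ 2 ≤ vr J c := by
  have h1 : ∑ k ∈ J, (2 * n * c k - ∑ l ∈ J, c l) ^ 2 = 2 * n * vr J c := by
    simp only [vr, sub_sq, Finset.sum_add_distrib, Finset.sum_sub_distrib, Finset.sum_const,
      nsmul_eq_mul, hn, ← Finset.sum_mul, ← Finset.mul_sum, mul_pow]
    ring
  have h2 := Finset.sum_le_sum_of_subset_of_nonneg (f := fun k => (2 * n * c k - ∑ l ∈ J, c l) ^ 2)
    (s := {i, j}) (Finset.insert_subset hi (Finset.singleton_subset_iff.2 hj))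
    fun _ _ _ => sq_nonneg _
  rw [Finset.sum_pair hij, h1] at h2
  generalize ∑ l ∈ J, c l = E at h2
  refine le_of_mul_le_mul_left ?_ (show 0 < 2 * n by omega)
  nlinarith [sq_nonneg (2 * n * c i - E + (2 * n * c j - E))]

/-- The possible values of `s = ∑ |τ u|²`, `t = τ w` and `q = a² + a'²`. -/
structure Num2 (m s t q : ℤ) : Prop where
  h1 : 4 * m * q ≤ s
  h2 : q = 1 → 8 * m - 4 ≤ s
  h3 : q = 0 → Even t ∧ (16 * m - 16 ≤ s ∨ 2 * m ∣ t)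

theorem Num2.le {m s t q : ℤ} (h : Num2 m s t q) (hm : 0 < m) (hq : 0 ≤ q) (ht : t ≠ 0)
    (h4 : 4 ∣ t → 24 + t ^ 2 ≤ 16 * m) : 16 * m - 12 ≤ s + t ^ 2 + (8 * m - 9) * q := by
  have h1 := h.h1
  have h5 : 0 < t ^ 2 := by positivity
  by_cases h0 : q = 0
  · obtain ⟨⟨r, rfl⟩, h2⟩ := h.h3 h0
    have h6 : 0 < r ^ 2 := by have : r ≠ 0 := by omega
                              positivity
    subst h0
    rcases h2 with h2 | ⟨k, hk⟩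
    · nlinarith
    have h7 : 0 < k ^ 2 := by have : k ≠ 0 := by rintro rfl; omega
                              positivity
    by_cases h8 : m = 2
    · subst h8
      have := h4 ⟨k, by omega⟩
      rw [hk] at this ⊢
      nlinarith
    · have h9 : 0 ≤ (m - 1) * (m - 3) := by
        rcases (show m = 1 ∨ 3 ≤ m by omega) with rfl | h9
        · simp
        · exact mul_nonneg (by omega) (by omega)
      rw [hk]
      nlinarith [mul_le_mul_of_nonneg_left (show 1 ≤ k ^ 2 by omega) (sq_nonneg m)]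
  by_cases h6 : q = 1
  · have := h.h2 h6
    subst h6; omega
  · nlinarith [mul_le_mul_of_nonneg_left (show 2 ≤ q by omega) (show 0 ≤ 12 * m - 9 by omega)]

theorem num2_of {m V₁ V₂ V₃ V₄ E₁ E₂ E₃ E₄ a b t : ℤ} (hm : 0 < m)
    (e₁ : Even E₁ → (V₁ = 0 ∧ 2 * m ∣ E₁) ∨ 4 * m - 4 ≤ V₁) (o₁ : Odd E₁ → 2 * m - 1 ≤ V₁)
    (e₂ : Even E₂ → (V₂ = 0 ∧ 2 * m ∣ E₂) ∨ 4 * m - 4 ≤ V₂) (o₂ : Odd E₂ → 2 * m - 1 ≤ V₂)
    (e₃ : (V₃ = 0 ∧ 2 * m ∣ E₃) ∨ 4 * m - 4 ≤ V₃) (e₄ : (V₄ = 0 ∧ 2 * m ∣ E₄) ∨ 4 * m - 4 ≤ V₄)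
    (p₁ : Even (a - E₁)) (p₂ : Even (b - E₂)) (p₃ : Even E₃) (p₄ : Even E₄)
    (d₁ : m * a ^ 2 ≤ V₁) (d₂ : m * b ^ 2 ≤ V₂)
    (ht : t = E₁ + E₂ - E₃ - E₄ ∨ t = E₁ - E₂ - E₃ + E₄) :
    Num2 m (4 * (V₁ + V₂ + V₃ + V₄)) t (a ^ 2 + b ^ 2) := by
  have h1 : 0 ≤ m * a ^ 2 := by positivity
  have h2 : 0 ≤ m * b ^ 2 := by positivity
  refine ⟨by nlinarith [show 0 ≤ V₃ by omega, show 0 ≤ V₄ by omega], fun h => ?_, fun h => ?_⟩
  · have h3 : Odd (a ^ 2 + b ^ 2) := by rw [h]; exact odd_one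
    have h4 : Odd E₁ ∨ Odd E₂ := by
      by_contra! h4
      simp only [Int.not_odd_iff_even] at h4
      exact Int.not_even_iff_odd.2 h3 ((((Int.even_sub.1 p₁).2 h4.1).pow_of_ne_zero two_ne_zero).add
        (((Int.even_sub.1 p₂).2 h4.2).pow_of_ne_zero two_ne_zero))
    rcases h4 with h4 | h4
    · have := o₁ h4; omega
    · have := o₂ h4; omega
  · obtain rfl : a = 0 := by nlinarith [sq_nonneg a, sq_nonneg b]
    obtain rfl : b = 0 := by nlinarith [sq_nonneg b]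
    rw [zero_sub, even_neg] at p₁ p₂
    have h7 : 0 ≤ V₃ := by omega
    have h8 : 0 ≤ V₄ := by omega
    refine ⟨by grind, ?_⟩
    rcases e₁ p₁ with ⟨-, h3⟩ | h3
    · rcases e₂ p₂ with ⟨-, h4⟩ | h4
      · rcases e₃ with ⟨-, h5⟩ | h5
        · rcases e₄ with ⟨-, h6⟩ | h6
          · rcases ht with rfl | rfl
            exacts [.inr (((h3.add h4).sub h5).sub h6), .inr (((h3.sub h4).sub h5).add h6)]
          · omega
        · omega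
      · omega
    · omega

theorem vr_odd_le {ι : Type*} (J : Finset ι) (c : ι → ℤ) {n : ℤ} (hn : (J.card : ℤ) = 2 * n)
    (h0 : 0 < n) (h : Odd (∑ j ∈ J, c j)) : 2 * n - 1 ≤ vr J c := by
  rcases vr_of_odd J c hn h0 h with h1 | ⟨h1, h2⟩
  · omega
  · rcases (show n = 1 ∨ 2 ≤ n by omega) with rfl | h3 <;> omega

theorem even_sub_sum {ι : Type*} [DecidableEq ι] (J : Finset ι) (c : ι → ℤ) {σ : ι → ι}
    (h1 : ∀ j ∈ J, σ j ∈ J) (h2 : ∀ j, σ (σ j) = j) (h3 : ∀ j, c (σ j) = c j) {i k : ι}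
    (hi : i ∈ J) (hk : k ∈ J) (hik : i ≠ k) (h4 : ∀ j ∈ J, σ j = j ↔ j = i ∨ j = k) :
    Even (c i - c k - ∑ j ∈ J, c j) := by
  have h5 : Even (∑ l ∈ (J.erase i).erase k, c l) :=
    even_sum_of_invol _ c (σ := σ) (fun l hl => by
      simp only [Finset.mem_erase] at hl ⊢
      exact ⟨fun h9 => hl.1 (by rw [← h2 l, h9, (h4 k hk).2 (.inr rfl)]),
        fun h9 => hl.2.1 (by rw [← h2 l, h9, (h4 i hi).2 (.inl rfl)]), h1 l hl.2.2⟩)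
      (fun l _ => h2 l) (fun l _ => h3 l) fun l hl h9 => by
        simp only [Finset.mem_erase] at hl
        exact ((h4 l hl.2.2).1 h9).elim hl.2.1 hl.1
  have h6 := Finset.add_sum_erase _ c hi
  rw [← Finset.add_sum_erase _ c (Finset.mem_erase.2 ⟨hik.symm, hk⟩)] at h6
  grind

variable {A : Type*} [Group A] [Fintype A] {γ : MulAut A} {v y : A} {m : ℕ} {l₁ μ : A →* ℂˣ}

variable (γ v y m l₁ μ) in
/-- The data for the Fourier analysis. -/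
structure FD : Prop where
  comm : ∀ a b : A, a * b = b * a
  card : Nat.card A = 8 * m
  invol : γ * γ = 1
  γv : γ v = v
  γy : γ y = y
  vv : v * v = 1
  yy : y * y = 1
  v1 : v ≠ 1
  y1 : y ≠ 1
  vy : v * y ≠ 1
  l1 : l₁ ≠ 1
  ly : l₁ y = 1
  lγ : cpA l₁ γ = l₁
  μy : μ y ≠ 1
  μγ : cpA μ γ = μ
  fix : ∀ l : A →* ℂˣ, cpA l γ = l → l v = 1
  fix' : ∀ l : A →* ℂˣ, cpA l γ = l → l y = 1 → l = 1 ∨ l = l₁

variable (γ v y m) in
/-- A test function. -/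
structure TF (φ : A → ℂ) : Prop where
  inv : ∀ u, φ (γ u) = φ u
  z : φ 1 = 0 ∧ φ v = 0 ∧ φ y = 0 ∧ φ (v * y) = 0
  norm : ∑ u, φ u * conj (φ u) = 16 * m

theorem FD.ne (h : FD γ v y m l₁ μ) (ν : A →* ℂˣ) : ν ≠ ν * l₁ := fun h3 =>
  h.l1 (MonoidHom.ext fun u => left_eq_mul.1 (DFunLike.congr_fun h3 u))

theorem FD.tf (h : FD γ v y m l₁ μ) {ν : A →* ℂˣ} (hν : cpA ν γ = ν) :
    TF γ v y m fun u => lc ν u⁻¹ - lc (ν * l₁) u⁻¹ := by
  classical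
  have h1 : ∀ u, l₁ u = 1 → lc ν u⁻¹ - lc (ν * l₁) u⁻¹ = 0 := fun u hu => by simp [lc_apply, hu]
  have h2 := h.fix _ h.lγ
  have h3 := h.ne ν
  refine ⟨fun u => ?_, ⟨h1 _ (map_one _), h1 _ h2, h1 _ h.ly, h1 _ (by rw [map_mul, h2, h.ly, mul_one])⟩,
    ?_⟩
  · have h4 : cpA (ν * l₁) γ = ν * l₁ := congrArg₂ (· * ·) hν h.lγ
    rw [← map_inv, ← lc_cpA, ← lc_cpA, hν, h4]
  · simp only [lc_inv, map_sub, Complex.conj_conj, sub_mul, mul_sub, Finset.sum_sub_distrib,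
      mul_comm (conj _), sum_lc_mul_conj, if_neg h3, if_neg h3.symm, h.card]
    push_cast; ring

theorem FD.exists_num (h : FD γ v y m l₁ μ) : ∃ φ ψ, TF γ v y m φ ∧ TF γ v y m ψ ∧
    ∀ f, IsGeneralizedCharacter A f → (∀ u, f (γ u) = f u) → ∃ s t t' a b : ℤ,
      Num2 m s t (a ^ 2 + b ^ 2) ∧ Num2 m s t' (a ^ 2 + b ^ 2) ∧
      ∑ u, ‖f u‖ ^ 2 = ‖f 1‖ ^ 2 + ‖f v‖ ^ 2 + ‖f y‖ ^ 2 + ‖f (v * y)‖ ^ 2 + s ∧ f v = t ∧
      f (v * y) = t' ∧ ∑ u, f u * φ u = 8 * m * a ∧ ∑ u, f u * ψ u = 8 * m * b := by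
  classical
  have := finite_hom A
  have := Fintype.ofFinite (A →* ℂˣ)
  have hm : 0 < m := by have := h.card; have := Nat.card_pos (α := A); omega
  refine ⟨_, _, h.tf (one_cpA γ), h.tf h.μγ, fun f hf hfγ => ?_⟩
  obtain ⟨c, h1, h2, h3⟩ := exists_fourier h.comm hf
  have h0 : (Nat.card A : ℂ) ≠ 0 := Nat.cast_ne_zero.2 Nat.card_pos.ne'
  have h4 : ∀ l, c (cpA l γ) = c l := fun l => by
    have h4 := h1 (cpA l γ)
    rw [← Equiv.sum_comp γ.toEquiv] at h4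
    simp only [MulEquiv.toEquiv_eq_coe, EquivLike.coe_coe, lc_cpA, map_inv, ← MulAut.mul_apply,
      h.invol, MulAut.one_apply, hfγ] at h4
    exact Int.cast_injective (α := ℂ) (mul_left_cancel₀ h0 (h4.symm.trans (h1 l)))
  have h5 : ∀ l, cpA (cpA l γ) γ = l := fun l => by rw [← cpA_mul, h.invol, cpA_one]
  have hpm : ∀ (l : A →* ℂˣ) u, u * u = 1 → l u ≠ 1 → l u = -1 := fun l u h1 h2 =>
    ((Units.inv_eq_self_iff _).1 (inv_eq_of_mul_eq_one_right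
      (by rw [← map_mul, h1, map_one]))).resolve_left h2
  set J₁ := Finset.univ.filter fun l : A →* ℂˣ => l v = 1 ∧ l y = 1 with hJ₁
  set J₂ := Finset.univ.filter fun l : A →* ℂˣ => l v = 1 ∧ l y ≠ 1 with hJ₂
  set J₃ := Finset.univ.filter fun l : A →* ℂˣ => l v ≠ 1 ∧ l y = 1 with hJ₃
  set J₄ := Finset.univ.filter fun l : A →* ℂˣ => l v ≠ 1 ∧ l y ≠ 1 with hJ₄
  have hs : ∀ g : (A →* ℂˣ) → ℂ, ∑ l, g l * lc l 1 =
      ∑ l ∈ J₁, g l + ∑ l ∈ J₂, g l + ∑ l ∈ J₃, g l + ∑ l ∈ J₄, g l ∧ ∑ l, g l * lc l v =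
      ∑ l ∈ J₁, g l + ∑ l ∈ J₂, g l - ∑ l ∈ J₃, g l - ∑ l ∈ J₄, g l ∧ ∑ l, g l * lc l y =
      ∑ l ∈ J₁, g l - ∑ l ∈ J₂, g l + ∑ l ∈ J₃, g l - ∑ l ∈ J₄, g l ∧ ∑ l, g l * lc l (v * y) =
      ∑ l ∈ J₁, g l - ∑ l ∈ J₂, g l - ∑ l ∈ J₃, g l + ∑ l ∈ J₄, g l := fun g => by
    simp only [hJ₁, hJ₂, hJ₃, hJ₄, Finset.sum_filter, ← Finset.sum_add_distrib,
      ← Finset.sum_sub_distrib, lc_apply, map_mul, map_one]
    refine ⟨?_, ?_, ?_, ?_⟩ <;> refine Finset.sum_congr rfl fun l _ => ?_ <;>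
      by_cases a1 : l v = 1 <;> by_cases a2 : l y = 1 <;>
      simp [a1, a2, hpm l v h.vv, hpm l y h.yy]
  have hc : (J₁.card : ℤ) = 2 * m ∧ (J₂.card : ℤ) = 2 * m ∧ (J₃.card : ℤ) = 2 * m ∧
      (J₄.card : ℤ) = 2 * m := by
    obtain ⟨a1, a2, a3, a4⟩ := hs fun _ => 1
    simp only [one_mul, sum_lc_apply h.comm, Finset.sum_const, nsmul_eq_mul, mul_one, if_neg h.v1,
      if_neg h.y1, if_neg h.vy, if_true, h.card] at a1 a2 a3 a4
    norm_cast at a1 a2 a3 a4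
    simp only [Int.subNatNat_eq_coe] at a2 a3 a4
    omega
  have h6 : ∀ l : A →* ℂˣ, cpA l γ v = l v := fun l => by rw [cpA_apply, h.γv]
  have h7 : ∀ l : A →* ℂˣ, cpA l γ y = l y := fun l => by rw [cpA_apply, h.γy]
  have hm' : (0 : ℤ) < m := by omega
  have h8 : ∀ J : Finset (A →* ℂˣ), (∀ l ∈ J, cpA l γ ∈ J) → (∀ l ∈ J, l v ≠ 1) →
      Even (∑ l ∈ J, c l) := fun J a1 a2 => even_sum_of_invol _ c (σ := fun l => cpA l γ) a1
    (fun l _ => h5 l) (fun l _ => h4 l) fun l hl a3 => a2 l hl (h.fix l a3)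
  have p₃ := h8 J₃ (by simp [hJ₃, h6, h7]) (by simp +contextual [hJ₃])
  have p₄ := h8 J₄ (by simp [hJ₄, h6, h7]) (by simp +contextual [hJ₄])
  have m₁ : 1 ∈ J₁ := by simp [hJ₁]
  have m₂ : 1 * l₁ ∈ J₁ := by simp [hJ₁, h.ly, h.fix _ h.lγ]
  have m₃ : μ ∈ J₂ := by simp [hJ₂, h.μy, h.fix _ h.μγ]
  have m₄ : μ * l₁ ∈ J₂ := by simp [hJ₂, h.μy, h.ly, h.fix _ h.μγ, h.fix _ h.lγ]
  have n₁ := h.ne
  have p₁ := even_sub_sum J₁ c (σ := fun l => cpA l γ) (by simp [hJ₁, h6, h7]) h5 h4 m₁ m₂ (n₁ 1)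
    fun l hl => ⟨fun a => (h.fix' l a (Finset.mem_filter.1 hl).2.2).imp_right
      fun a1 => a1.trans (MonoidHom.ext fun u => (one_mul _).symm), by
      rintro (rfl | rfl)
      exacts [rfl, congrArg₂ (· * ·) (one_cpA γ) h.lγ]⟩
  have p₂ := even_sub_sum J₂ c (σ := fun l => cpA l γ) (by simp [hJ₂, h6, h7]) h5 h4 m₃ m₄ (n₁ μ)
    fun l hl => ⟨fun a => by
      have a1 := h.fix' (μ⁻¹ * l) (congrArg₂ (fun a b => a⁻¹ * b) h.μγ a) (by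
        rw [MonoidHom.mul_apply, MonoidHom.inv_apply, hpm μ y h.yy h.μy,
          hpm l y h.yy (Finset.mem_filter.1 hl).2.2]; simp)
      exact a1.imp (fun a2 => MonoidHom.ext fun u => (inv_mul_eq_one.1 (DFunLike.congr_fun a2 u)).symm)
        fun a2 => MonoidHom.ext fun u => inv_mul_eq_iff_eq_mul.1 (DFunLike.congr_fun a2 u), by
      rintro (rfl | rfl)
      exacts [h.μγ, congrArg₂ (· * ·) h.μγ h.lγ]⟩
  have N := fun t => num2_of (t := t) hm' (vr_of_even J₁ c hc.1 hm') (vr_odd_le J₁ c hc.1 hm')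
    (vr_of_even J₂ c hc.2.1 hm') (vr_odd_le J₂ c hc.2.1 hm') (vr_of_even J₃ c hc.2.2.1 hm' p₃)
    (vr_of_even J₄ c hc.2.2.2 hm' p₄) p₁ p₂ p₃ p₄ (vr_nonneg_diff J₁ c hc.1 hm' m₁ m₂ (n₁ 1))
    (vr_nonneg_diff J₂ c hc.2.1 hm' m₃ m₄ (n₁ μ))
  obtain ⟨a1, a2, a3, a4⟩ := hs fun l => c l
  rw [← h2] at a1 a2 a3 a4
  have a5 := (hs fun l => (c l : ℂ) ^ 2).1
  simp only [lc_one_right, mul_one] at a5
  refine ⟨_, _, _, _, _, N _ (.inl rfl), N _ (.inr rfl), ?_, by rw [a2]; push_cast; rfl,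
    by rw [a4]; push_cast; rfl, ?_, ?_⟩
  · norm_cast at a1 a2 a3 a4 a5
    rw [h3, a1, a2, a3, a4, h.card]
    simp only [Complex.norm_intCast, sq_abs, vr, hc.1, hc.2.1, hc.2.2.1, hc.2.2.2]
    norm_cast
    rw [a5]
    push_cast
    ring
  all_goals
    simp only [mul_sub, Finset.sum_sub_distrib, h1, h.card]
    push_cast; ring

end Cfsg.Agent.H35
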