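import Cfsg.Agent.H42.OddAut
import Cfsg.Agent.H35.SbFour

/-! The groups `D × C₂` and `⟨x, y, s | s x s⁻¹ = x⁻¹ y⟩`, central extensions of dihedral groups. -/

set_option autoImplicit false
set_option linter.unusedSectionVars false

open Subgroup

namespace Cfsg.Agent.H35

open Cfsg.Agent.H42 Cfsg.Agent.H34

variable {H : Type*} [Group H] {x y s u v g : H} {m : ℕ}

variable (x y s m) in
/-- A group of order `16 m` with the abelian subgroup `⟨x⟩ × ⟨y⟩` of index two, which is dihedral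
modulo the central involution `y`. -/
structure DY : Prop where
  ord : orderOf x = 4 * m
  card : Nat.card H = 16 * m
  pow : ∃ k, m = 2 ^ k
  yy : y * y = 1
  ynm : y ∉ zpowers x
  xy : x * y = y * x
  sy : s * y = y * s
  ss : s * s = 1
  snm : s ∉ zpowers x ⊔ zpowers y
  cj : s * x * s⁻¹ = x⁻¹ ∨ s * x * s⁻¹ = x⁻¹ * y

/-- The abelian subgroup of index two. -/
abbrev aA (x y : H) : Subgroup H := zpowers x ⊔ zpowers y

/-- The centre. -/
abbrev oO (x y : H) (m : ℕ) : Subgroup H := zpowers (x ^ (2 * m)) ⊔ zpowers y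

theorem mem_No_of_comm (h : x * y = y * x) : y ∈ normalizer (zpowers x : Set H) :=
  centralizer_le_normalizer _ (mem_centralizer_iff.2 fun _ ⟨k, hk⟩ => by
    rw [← hk]; exact ((show Commute x y from h).zpow_left k).eq)

theorem invol_mem {n : ℕ} (hx : orderOf x = 2 * n) (hn : ∃ k, n = 2 ^ k) (hu : u ∈ zpowers x)
    (h1 : u ≠ 1) : x ^ n ∈ zpowers u := by
  obtain ⟨k, hk⟩ := hn
  have h2 : u ^ 2 ^ (k + 1) = 1 := by
    obtain ⟨i, rfl⟩ := hu
    rw [← zpow_natCast, ← zpow_mul, mul_comm, zpow_mul, zpow_natCast, pow_succ', ← hk, ← hx,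
      pow_orderOf_eq_one, one_zpow]
  have h3 : x ^ n * x ^ n = 1 := by rw [← pow_add, ← two_mul, ← hx, pow_orderOf_eq_one]
  generalize k + 1 = j at h2
  induction j generalizing u with
  | zero => exact absurd (by simpa using h2) h1
  | succ j ih =>
    by_cases h4 : u * u = 1
    · rw [← ((mem_zpowers_of_mul_self h3).1 (mem_zpowers_pow_of_pow_eq_one two_ne_zero
        (by rw [hx, mul_comm]) hu (by rw [sq, h4]))).resolve_left h1]
      exact mem_zpowers u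
    · exact zpowers_le.2 (mul_mem (mem_zpowers u) (mem_zpowers u))
        (ih (mul_mem hu hu) h4 (by rw [← sq, ← pow_mul, ← pow_succ', h2]))

namespace DY

variable (h : DY x y s m)
include h

theorem map {K : Type*} [Group K] (r : H ≃* K) : DY (r x) (r y) (r s) m where
  ord := by rw [r.orderOf_eq, h.ord]
  card := by rw [← Nat.card_congr r.toEquiv, h.card]
  pow := h.pow
  yy := by rw [← map_mul, h.yy, map_one]
  ynm := fun ⟨k, hk⟩ => h.ynm ⟨k, r.injective (by simpa using hk)⟩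
  xy := by rw [← map_mul, h.xy, map_mul]
  sy := by rw [← map_mul, h.sy, map_mul]
  ss := by rw [← map_mul, h.ss, map_one]
  snm := fun h1 => h.snm (by
    have h2 : zpowers (r x) ⊔ zpowers (r y) = (zpowers x ⊔ zpowers y).map r.toMonoidHom := by
      simp [Subgroup.map_sup, MonoidHom.map_zpowers]
    rw [h2] at h1
    obtain ⟨a, ha, h3⟩ := h1
    exact r.injective h3 ▸ ha)
  cj := by simpa only [← map_inv, ← map_mul, r.injective.eq_iff] using h.cj

theorem pos : 0 < m := by obtain ⟨k, rfl⟩ := h.pow; positivity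

theorem finite : Finite H := Nat.finite_of_card_ne_zero (by have := h.pos; rw [h.card]; omega)

theorem pgp : IsPGroup 2 H := by
  obtain ⟨k, hk⟩ := h.pow
  exact IsPGroup.of_card (n := k + 4) (by rw [h.card, hk]; ring)

theorem y_inv : y⁻¹ = y := inv_eq_of_mul_eq_one_right h.yy

theorem s_inv : s⁻¹ = s := inv_eq_of_mul_eq_one_right h.ss

theorem y_ne : y ≠ 1 := fun h1 => h.ynm (h1 ▸ one_mem _)

theorem mem_y : u ∈ zpowers y ↔ u = 1 ∨ u = y := mem_zpowers_of_mul_self h.yy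

theorem eq_one (h1 : u ∈ zpowers x) (h2 : u ∈ zpowers y) : u = 1 :=
  (h.mem_y.1 h2).resolve_right fun h3 => h.ynm (h3 ▸ h1)

theorem exists_A (hu : u ∈ aA x y) : ∃ i : ℤ, u = x ^ i ∨ u = x ^ i * y := by
  rcases (mem_sup_zpowers (mem_No_of_comm h.xy) (h.yy ▸ one_mem _)).1 hu with ⟨i, hi⟩ | ⟨i, hi⟩
  exacts [⟨i, .inl hi.symm⟩, ⟨i, .inr (mul_inv_eq_iff_eq_mul.1 hi.symm)⟩]

omit h in
theorem x_mem : x ∈ aA x y := mem_sup_left (mem_zpowers x)

omit h in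
theorem y_mem : y ∈ aA x y := mem_sup_right (mem_zpowers y)

theorem card_A : Nat.card (aA x y) = 8 * m := by
  rw [card_sup_zpowers (mem_No_of_comm h.xy) (h.yy ▸ one_mem _) h.ynm, Nat.card_zpowers, h.ord]
  ring

theorem index : (aA x y).index = 2 := by
  have h1 := (aA x y).card_mul_index
  rw [h.card_A, h.card] at h1
  exact Nat.eq_of_mul_eq_mul_left (show 0 < 8 * m by have := h.pos; omega) (by omega)

theorem mul_mem_iff : u * v ∈ aA x y ↔ (u ∈ aA x y ↔ v ∈ aA x y) :=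
  mul_mem_iff_of_index_two h.index

theorem normal : (aA x y).Normal := normal_of_index_eq_two h.index

theorem cj_mem_iff : g * u * g⁻¹ ∈ aA x y ↔ u ∈ aA x y := by
  rw [h.mul_mem_iff, h.mul_mem_iff, inv_mem_iff]; tauto

theorem mul_inv_mem (hu : u ∉ aA x y) (hv : v ∉ aA x y) : u * v⁻¹ ∈ aA x y :=
  h.mul_mem_iff.2 (iff_of_false hu (mt inv_mem_iff.1 hv))

omit h in
theorem mul_nm (hu : u ∉ aA x y) (hv : v ∈ aA x y) : u * v ∉ aA x y :=
  mt (mul_mem_cancel_right hv).1 hu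

omit h in
theorem nm_mul (hu : u ∈ aA x y) (hv : v ∉ aA x y) : u * v ∉ aA x y :=
  mt (mul_mem_cancel_left hu).1 hv

theorem comm_A (hu : u ∈ aA x y) (hv : v ∈ aA x y) : u * v = v * u := by
  have h1 : Commute x y := h.xy
  obtain ⟨i, rfl | rfl⟩ := h.exists_A hu <;> obtain ⟨j, rfl | rfl⟩ := h.exists_A hv
  · exact Commute.zpow_zpow_self x i j
  · exact (Commute.zpow_zpow_self x i j).mul_right (h1.zpow_left i)
  · exact (Commute.zpow_zpow_self x i j).mul_left (h1.zpow_left j).symm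
  · exact ((Commute.zpow_zpow_self x i j).mul_right (h1.zpow_left i)).mul_left
      ((h1.zpow_left j).symm.mul_right (Commute.refl y))

theorem cj_in (hg : g ∈ aA x y) (hu : u ∈ aA x y) : g * u * g⁻¹ = u := by
  rw [h.comm_A hg hu, mul_inv_cancel_right]

theorem cj_out (hg : g ∉ aA x y) (hu : u ∈ aA x y) : g * u * g⁻¹ = s * u * s⁻¹ := by
  have h1 := h.cj_in (h.mul_mem_iff.2 (iff_of_false (mt inv_mem_iff.1 h.snm) hg)) hu
  rw [← h1]; conv_lhs => rw [h1]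
  group

theorem comm_of_fix (hu : u ∈ aA x y) (h1 : s * u * s⁻¹ = u) (g : H) : g * u = u * g := by
  rw [← mul_inv_eq_iff_eq_mul]
  by_cases hg : g ∈ aA x y
  exacts [h.cj_in hg hu, (h.cj_out hg hu).trans h1]

theorem y_comm (g : H) : g * y = y * g :=
  h.comm_of_fix y_mem (mul_inv_eq_iff_eq_mul.2 h.sy) g

theorem cj' : ∃ k ∈ zpowers y, s * x * s⁻¹ = x⁻¹ * k :=
  h.cj.elim (fun h1 => ⟨1, one_mem _, by rw [h1, mul_one]⟩) fun h1 => ⟨y, mem_zpowers y, h1⟩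

theorem cj_zpow {k : H} (hk : k ∈ zpowers y) (h1 : s * x * s⁻¹ = x⁻¹ * k) (i : ℤ) :
    s * x ^ i * s⁻¹ = (x ^ i)⁻¹ * k ^ i := by
  have h2 : Commute x⁻¹ k := h.comm_A (inv_mem x_mem) (mem_sup_right hk)
  rw [← conj_zpow, h1, h2.mul_zpow, inv_zpow]

theorem mul_cj_mem (hu : u ∈ aA x y) : u * (s * u * s⁻¹) ∈ zpowers y := by
  obtain ⟨k, hk, h1⟩ := h.cj'
  obtain ⟨i, rfl | rfl⟩ := h.exists_A hu
  · rw [h.cj_zpow hk h1, mul_inv_cancel_left]; exact zpow_mem hk i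
  · rw [← conj_mul, h.cj_zpow hk h1, h.y_comm s, mul_inv_cancel_right, mul_assoc, ← h.y_comm,
      mul_assoc _ y, h.yy, mul_one, mul_inv_cancel_left]
    exact zpow_mem hk i

theorem ww : x ^ (2 * m) * x ^ (2 * m) = 1 := by
  rw [← pow_add, show 2 * m + 2 * m = 4 * m by ring, ← h.ord, pow_orderOf_eq_one]

theorem w_inv : (x ^ (2 * m))⁻¹ = x ^ (2 * m) := inv_eq_of_mul_eq_one_right h.ww

theorem w_ne : x ^ (2 * m) ≠ 1 :=
  pow_ne_one_of_lt_orderOf (by have := h.pos; omega) (by have := h.pos; rw [h.ord]; omega)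

theorem w_nm : x ^ (2 * m) ∉ zpowers y := fun h1 => h.w_ne (h.eq_one (npow_mem_zpowers _ _) h1)

theorem w_ne_y : x ^ (2 * m) ≠ y := fun h1 => h.w_nm (h1 ▸ mem_zpowers _)

theorem wy_ne : x ^ (2 * m) * y ≠ 1 := fun h1 => h.w_ne_y (h.y_inv ▸ eq_inv_of_mul_eq_one_left h1)

theorem w_comm (g : H) : g * x ^ (2 * m) = x ^ (2 * m) * g := by
  obtain ⟨k, hk, h1⟩ := h.cj'
  refine h.comm_of_fix (pow_mem x_mem _) ?_ g
  have h2 : k ^ 2 = 1 := by rcases h.mem_y.1 hk with rfl | rfl <;> simp [sq, h.yy]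
  rw [← zpow_natCast, h.cj_zpow hk h1, zpow_natCast, zpow_natCast, h.w_inv, pow_mul k, h2, one_pow,
    mul_one]

theorem mem_O : u ∈ oO x y m ↔ u = 1 ∨ u = x ^ (2 * m) ∨ u = y ∨ u = x ^ (2 * m) * y := by
  rw [mem_sup_zpowers (mem_No_of_comm (h.y_comm _)) (h.yy ▸ one_mem _),
    mem_zpowers_of_mul_self h.ww, mem_zpowers_of_mul_self h.ww, mul_inv_eq_one,
    mul_inv_eq_iff_eq_mul, or_assoc]

omit h in
theorem O_le : oO x y m ≤ aA x y := sup_le_sup_right (zpowers_le.2 (npow_mem_zpowers _ _)) _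

omit h in
theorem w_memO : x ^ (2 * m) ∈ oO x y m := mem_sup_left (mem_zpowers _)

omit h in
theorem y_memO : y ∈ oO x y m := mem_sup_right (mem_zpowers _)

theorem O_comm (hu : u ∈ oO x y m) (g : H) : g * u = u * g := by
  rcases h.mem_O.1 hu with rfl | rfl | rfl | rfl
  exacts [by simp, h.w_comm g, h.y_comm g,
    by rw [← mul_assoc, h.w_comm, mul_assoc, h.y_comm, mul_assoc]]

theorem O_sq (hu : u ∈ oO x y m) : u * u = 1 := by
  rcases h.mem_O.1 hu with rfl | rfl | rfl | rfl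
  exacts [by simp, h.ww, h.yy,
    by rw [mul_assoc, ← mul_assoc y, h.w_comm, mul_assoc, h.yy, mul_one, h.ww]]

theorem mul_y_sq (u : H) : u * y * (u * y) = u * u := by
  rw [mul_assoc, ← mul_assoc y, ← h.y_comm, mul_assoc, h.yy, mul_one]

theorem mul_O_sq (hv : v ∈ oO x y m) (u : H) : u * v * (u * v) = u * u := by
  rw [mul_assoc, ← mul_assoc v, ← h.O_comm hv, mul_assoc, h.O_sq hv, mul_one]

theorem sq_mem (hu : u ∈ aA x y) : u * u ∈ zpowers x := by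
  obtain ⟨i, rfl | rfl⟩ := h.exists_A hu
  · exact mul_mem (zpow_mem_zpowers _ _) (zpow_mem_zpowers _ _)
  · rw [h.mul_y_sq]; exact mul_mem (zpow_mem_zpowers _ _) (zpow_mem_zpowers _ _)

theorem mem_O_of_sq (hu : u ∈ aA x y) (h1 : u * u = 1) : u ∈ oO x y m := by
  have h2 : ∀ i : ℤ, x ^ i * x ^ i = 1 → x ^ i ∈ oO x y m := fun i hi => mem_sup_left
    (mem_zpowers_pow_of_pow_eq_one two_ne_zero (by rw [h.ord]; ring) (zpow_mem_zpowers _ _)
      (by rw [sq, hi]))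
  obtain ⟨i, rfl | rfl⟩ := h.exists_A hu
  · exact h2 i h1
  · exact mul_mem (h2 i (h.mul_y_sq _ ▸ h1)) y_memO

theorem mem_O_of_fix (hu : u ∈ aA x y) (h1 : s * u * s⁻¹ = u) : u ∈ oO x y m :=
  h.mem_O_of_sq hu (h.eq_one (h.sq_mem hu) (by simpa only [h1] using h.mul_cj_mem hu))

theorem x_nm : x ∉ oO x y m := fun h1 => by
  have h2 := orderOf_dvd_of_pow_eq_one (show x ^ 2 = 1 by rw [sq, h.O_sq h1])
  have := Nat.le_of_dvd two_pos h2
  have := h.pos
  rw [h.ord] at *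
  omega

theorem w_mem (hu : u ∈ aA x y) (h1 : u ∉ oO x y m) : x ^ (2 * m) ∈ zpowers (u * u) := by
  obtain ⟨k, hk⟩ := h.pow
  exact invol_mem (by rw [h.ord]; ring) ⟨k + 1, by rw [hk, pow_succ']⟩ (h.sq_mem hu)
    (mt (h.mem_O_of_sq hu) h1)

theorem sq_out (hu : u ∉ aA x y) : u * u ∈ zpowers y := by
  have h1 := h.mul_cj_mem (h.mul_inv_mem hu h.snm)
  rwa [show u * s⁻¹ * (s * (u * s⁻¹) * s⁻¹) = u * u * (s * s)⁻¹ by group, h.ss, inv_one,
    mul_one] at h1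

theorem cent_out (hu : u ∉ aA x y) (hg : g * u = u * g) :
    g ∈ oO x y m ∨ g * u⁻¹ ∈ oO x y m := by
  by_cases h1 : g ∈ aA x y
  · exact .inl (h.mem_O_of_fix h1 (by rw [← h.cj_out hu h1, ← hg, mul_inv_cancel_right]))
  · have h2 := h.mul_inv_mem h1 hu
    exact .inr (h.mem_O_of_fix h2 (by rw [← h.cj_out hu h2, ← mul_assoc, ← hg]; group))

theorem mem_O_of_central (hu : ∀ g, g * u = u * g) : u ∈ oO x y m := by
  by_cases h1 : u ∈ aA x y
  · exact h.mem_O_of_fix h1 (by rw [hu, mul_inv_cancel_right])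
  · rcases h.cent_out h1 (hu x) with h2 | h2
    · exact absurd h2 h.x_nm
    · exact absurd (O_le h2) (nm_mul x_mem (mt inv_mem_iff.1 h1))

theorem isConj_iff (hu : u ∈ aA x y) : IsConj u v ↔ v = u ∨ v = s * u * s⁻¹ := by
  refine ⟨fun h1 => ?_, ?_⟩
  · obtain ⟨c, rfl⟩ := _root_.isConj_iff.1 h1
    by_cases hc : c ∈ aA x y
    exacts [.inl (h.cj_in hc hu), .inr (h.cj_out hc hu)]
  · rintro (rfl | rfl)
    exacts [IsConj.refl _, _root_.isConj_iff.2 ⟨s, rfl⟩]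

theorem card_cent (hu : u ∈ aA x y) (h1 : u ∉ oO x y m) :
    Nat.card (centralizer {u} : Subgroup H) = 8 * m := by
  rw [← h.card_A]
  congr 2
  ext g
  rw [mem_centralizer_singleton_iff]
  exact ⟨fun h2 => by_contra fun hg => h1 (h.mem_O_of_fix hu (by
    rw [← h.cj_out hg hu, h2, mul_inv_cancel_right])), fun hg => h.comm_A hg hu⟩

theorem cj_eq (hu : u ∉ aA x y) (hg : g ∈ aA x y) : g * u * g⁻¹ = g * (s * g * s⁻¹)⁻¹ * u := by
  rw [← h.cj_out hu hg]; group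

theorem not_isConj (hu : u ∉ aA x y) : ¬ IsConj u (u * y) := fun h1 => by
  obtain ⟨c, hc⟩ := _root_.isConj_iff.1 h1
  obtain ⟨a, ha, h2⟩ : ∃ a ∈ aA x y, a * u * a⁻¹ = u * y := by
    by_cases h2 : c ∈ aA x y
    · exact ⟨c, h2, hc⟩
    · exact ⟨_, h.mul_inv_mem h2 hu, by rw [← hc]; group⟩
  obtain ⟨i, h3⟩ : ∃ i : ℤ, x ^ i * u * (x ^ i)⁻¹ = u * y := by
    obtain ⟨i, rfl | rfl⟩ := h.exists_A ha
    · exact ⟨i, h2⟩
    · exact ⟨i, by rw [← h2, mul_assoc _ y, ← h.y_comm]; group⟩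
  obtain ⟨k, hk, h4⟩ := h.cj'
  rw [h.cj_eq hu (zpow_mem x_mem i), h.y_comm u, mul_left_inj, h.cj_zpow hk h4, mul_inv_rev, inv_inv,
    ← h.comm_A (zpow_mem x_mem i) (inv_mem (zpow_mem (mem_sup_right hk) i)), ← mul_assoc,
    mul_inv_eq_iff_eq_mul] at h3
  have h5 := h.eq_one (mul_mem (zpow_mem_zpowers x i) (zpow_mem_zpowers x i))
    (h3 ▸ mul_mem (mem_zpowers y) (zpow_mem hk i))
  have h6 : ((4 * m : ℕ) : ℤ) ∣ i + i := by
    rw [← h.ord, orderOf_dvd_iff_zpow_eq_one, zpow_add, h5]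
  obtain ⟨j, rfl⟩ : (2 : ℤ) ∣ i := by
    obtain ⟨j, hj⟩ := h6
    exact ⟨m * j, by push_cast at hj; linarith⟩
  have h7 : k ^ (2 : ℤ) = 1 := by rw [zpow_two, h.O_sq (mem_sup_right hk)]
  rw [h5, zpow_mul, h7, one_zpow, mul_one] at h3
  exact h.y_ne h3.symm

theorem isConj_mul_w (hm : Even m ∨ s * x * s⁻¹ = x⁻¹) (hu : u ∉ aA x y) :
    IsConj u (u * x ^ (2 * m)) := by
  refine _root_.isConj_iff.2 ⟨x ^ m, ?_⟩
  have h1 : s * x ^ m * s⁻¹ = (x ^ m)⁻¹ := by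
    rcases hm with ⟨j, hj⟩ | h1
    · obtain ⟨k, hk, h1⟩ := h.cj'
      have h2 : k ^ 2 = 1 := by rcases h.mem_y.1 hk with rfl | rfl <;> simp [sq, h.yy]
      rw [← zpow_natCast, h.cj_zpow hk h1, zpow_natCast, zpow_natCast,
        show k ^ m = 1 by rw [hj, ← two_mul, pow_mul, h2, one_pow], mul_one]
    · rw [← conj_pow, h1, inv_pow]
  rw [h.cj_eq hu (pow_mem x_mem m), h1, inv_inv, ← pow_add, ← two_mul, h.w_comm]

theorem sq_ne_wy (g : H) : g * g ≠ x ^ (2 * m) * y := fun h1 => by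
  by_cases hg : g ∈ aA x y
  · exact h.ynm ((mul_mem_cancel_left (npow_mem_zpowers x _)).1 (h1 ▸ h.sq_mem hg))
  · exact h.w_nm ((mul_mem_cancel_right (mem_zpowers y)).1 (h1 ▸ h.sq_out hg))

variable {X : Subgroup H} {f : H → H}

theorem fix_of_fix_O (hf : OddAut X f) (h1 : ∀ u ∈ oO x y m, f u = u)
    (hg : g ∈ X) : f g = g := by
  have h2 : ∀ g ∈ X ⊓ aA x y, f g ∈ X ⊓ aA x y := fun g hg => ⟨hf.mem g hg.1, by
    by_cases h2 : g ∈ oO x y m
    · rw [h1 g h2]; exact hg.2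
    obtain ⟨k, hk⟩ := h.w_mem hg.2 h2
    by_contra h3
    refine h.w_nm ?_
    simp only at hk
    rw [← h1 _ w_memO, ← hk, hf.zpow (mul_mem hg.1 hg.1), hf.mul _ hg.1 _ hg.1]
    exact zpow_mem (h.sq_out h3) k⟩
  have h3 : OddAut (X ⊓ aA x y) f := ⟨hf.isP.to_le inf_le_left, h2,
    fun a ha b hb => hf.mul a ha.1 b hb.1, hf.iter.imp fun _ h => ⟨h.1, fun g hg => h.2 g hg.1⟩⟩
  have h4 : ∀ g ∈ X ⊓ aA x y, f g = g := fun g hg => h3.fix_of_fix_omega
    (fun a ha b hb => h.comm_A ha.2 hb.2) (fun a ha h4 => h1 a (h.mem_O_of_sq ha.2 h4)) hg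
  by_cases h5 : g ∈ aA x y
  · exact h4 g ⟨hg, h5⟩
  · have h6 := hf.mem g hg
    exact hf.fix_of_fix hg (h4 _ ⟨X.mul_mem h6 (X.inv_mem hg), h.mul_inv_mem
      (fun h7 => h5 (hf.inj h6 hg (h4 _ ⟨h6, h7⟩) ▸ h7)) h5⟩)

theorem exists_out (hX : oO x y m ≤ X) (hf : OddAut X f) (h1 : ∃ g ∈ X, f g ≠ g)
    (h2 : ∀ u ∈ oO x y m, f u ∈ oO x y m → f u = u) :
    ∃ u ∈ oO x y m, f u ∉ aA x y ∧ f u * f u = 1 ∧ ∀ a ∈ X, a * f u = f u * a := by
  obtain ⟨g, hg, h1⟩ := h1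
  obtain ⟨u, hu, h3⟩ : ∃ u ∈ oO x y m, f u ∉ oO x y m := by
    by_contra! h3
    exact h1 (h.fix_of_fix_O hf (fun u hu => h2 u hu (h3 u hu)) hg)
  have h4 : f u * f u = 1 := by rw [← hf.mul _ (hX hu) _ (hX hu), h.O_sq hu, hf.one]
  refine ⟨u, hu, fun h5 => h3 (h.mem_O_of_sq h5 h4), h4, fun a ha => ?_⟩
  obtain ⟨b, hb, rfl⟩ := hf.surj ha
  rw [← hf.mul _ hb _ (hX hu), h.O_comm hu, hf.mul _ (hX hu) _ hb]

theorem fix_top (hf : OddAut ⊤ f) (g : H) : f g = g := by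
  have h0 : ∀ a b, f (a * b) = f a * f b := fun a b => hf.mul a (mem_top a) b (mem_top b)
  have h1 : ∀ u ∈ oO x y m, f u ∈ oO x y m := fun u hu => h.mem_O_of_central fun a => by
    obtain ⟨b, -, rfl⟩ := hf.surj (mem_top a)
    rw [← h0, h.O_comm hu, h0]
  have h2 : ∀ a b, f a = f b → a = b := fun a b => hf.inj (mem_top a) (mem_top b)
  have h3 : ∀ a, a * a ∈ oO x y m → a * a ≠ 1 → f (a * a) = x ^ (2 * m) ∨ f (a * a) = y :=
    fun a ha h3 => by
      rcases h.mem_O.1 (h1 _ ha) with h4 | h4 | h4 | h4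
      exacts [absurd (h2 _ _ (h4.trans hf.one.symm)) h3, .inl h4, .inr h4,
        absurd (h0 a a ▸ h4) (h.sq_ne_wy _)]
  have h4 : x ^ m * x ^ m = x ^ (2 * m) := by rw [← pow_add, two_mul]
  have h5 := h3 (x ^ m) (h4 ▸ w_memO) (h4 ▸ h.w_ne)
  have h6 : f (x ^ (2 * m)) = x ^ (2 * m) := by
    rw [h4] at h5
    refine h5.resolve_right fun h6 => ?_
    have h7 : f (x ^ m) * f (x ^ m) = y := by rw [← h0, h4, h6]
    have h8 := h3 _ (h7 ▸ y_memO) (h7 ▸ h.y_ne)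
    rw [h7] at h8
    have h9 := h8.resolve_right fun h9 => h.w_ne_y (h2 _ _ (h6.trans h9.symm))
    exact h.w_ne_y (h6 ▸ (hf.fix_of_fix (mem_top _) (by
      rw [h6, h.w_inv, h0, h9, h6, h.y_comm])).symm)
  have h7 : f y = y := by
    rcases h.mem_O.1 (h1 _ y_memO) with h7 | h7 | h7 | h7
    · exact absurd (h2 _ _ (h7.trans hf.one.symm)) h.y_ne
    · exact absurd (h2 _ _ (h6.trans h7.symm)) h.w_ne_y
    · exact h7
    · exact hf.fix_of_fix (mem_top _) (by rw [h7, mul_inv_cancel_right, h6])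
  refine h.fix_of_fix_O hf (fun u hu => ?_) (mem_top g)
  rcases h.mem_O.1 hu with rfl | rfl | rfl | rfl
  exacts [hf.one, h6, h7, by rw [h0, h6, h7]]

theorem exists_lc {K : Subgroup (aA x y)} {a : aA x y} (ha : a ∉ K) :
    ∃ l : aA x y →* ℂˣ, l a ≠ 1 ∧ ∀ b ∈ K, l b = 1 := by
  have := h.finite
  have hA : ∀ a b : aA x y, a * b = b * a := fun a b => Subtype.ext (h.comm_A a.2 b.2)
  have : K.Normal := ⟨fun a ha g => by rwa [hA g, mul_inv_cancel_right]⟩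
  obtain ⟨l, hl⟩ := H34.exists_lc_ne_one (A := aA x y ⧸ K) (fun a b => by
    obtain ⟨a, rfl⟩ := QuotientGroup.mk_surjective a
    obtain ⟨b, rfl⟩ := QuotientGroup.mk_surjective b
    rw [← QuotientGroup.mk_mul, hA, QuotientGroup.mk_mul]) (mt (QuotientGroup.eq_one_iff a).1 ha)
  exact ⟨l.comp (QuotientGroup.mk' K), hl, fun b hb => by
    rw [MonoidHom.comp_apply, QuotientGroup.mk'_apply, (QuotientGroup.eq_one_iff b).2 hb, map_one]⟩

theorem exists_fd [Fintype (aA x y)] : ∃ (γ : MulAut (aA x y)) (v : aA x y) (l₁ μ : aA x y →* ℂˣ),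
    FD γ v ⟨y, y_mem⟩ m l₁ μ ∧ (∀ u, (γ u : H) = s * u * s⁻¹) ∧
      ((v : H) = x ^ (2 * m) ∨ (v : H) = x ^ (2 * m) * y) := by
  have := h.normal
  obtain ⟨k, hk, h1⟩ := h.cj'
  set x' : aA x y := ⟨x, x_mem⟩ with hx'
  set y' : aA x y := ⟨y, y_mem⟩ with hy'
  set k' : aA x y := ⟨k, mem_sup_right hk⟩ with hk'
  set γ : MulAut (aA x y) := MulAut.conjNormal s with hγ
  have hc : ∀ u, (γ u : H) = s * u * s⁻¹ := fun u => rfl
  have hx : γ x' = x'⁻¹ * k' := Subtype.ext h1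
  have hy : γ y' = y' := Subtype.ext (mul_inv_eq_iff_eq_mul.2 h.sy)
  have hext : ∀ l l' : aA x y →* ℂˣ, l x' = l' x' → l y' = l' y' → l = l' := fun l l' a1 a2 =>
    MonoidHom.ext fun ⟨u, hu⟩ => by
      obtain ⟨i, rfl | rfl⟩ := h.exists_A hu
      · exact (map_zpow l x' i).trans (a1 ▸ (map_zpow l' x' i).symm)
      · exact (map_mul l (x' ^ i) y').trans (by rw [map_zpow, a1, a2, ← map_zpow, ← map_mul]; rfl)
  have hfix : ∀ l : aA x y →* ℂˣ, cpA l γ = l ↔ l (x' ^ 2 * k'⁻¹) = 1 := fun l => by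
    rw [map_mul, map_inv, mul_inv_eq_one, map_pow, sq, ← eq_inv_mul_iff_mul_eq, ← map_inv,
      ← map_mul, ← hx]
    exact ⟨fun a => (DFunLike.congr_fun a x').symm, fun a => hext _ _ a.symm (congrArg l hy)⟩
  have hk2 : k' = 1 ∨ k' = y' := (h.mem_y.1 hk).imp Subtype.ext Subtype.ext
  have hv : (((x' ^ 2 * k'⁻¹) ^ m : aA x y) : H) = x ^ (2 * m) * (k ^ m)⁻¹ := by
    have a1 : Commute (x ^ 2) k⁻¹ := (h.O_comm (inv_mem (mem_sup_right hk)) _)
    simp only [SubgroupClass.coe_pow, coe_mul, coe_inv, hx', hk', a1.mul_pow, ← pow_mul, inv_pow]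
  have hv' : (((x' ^ 2 * k'⁻¹) ^ m : aA x y) : H) = x ^ (2 * m) ∨
      (((x' ^ 2 * k'⁻¹) ^ m : aA x y) : H) = x ^ (2 * m) * y := by
    rcases h.mem_y.1 (inv_mem (pow_mem hk m)) with a1 | a1 <;> simp only [hv, a1, mul_one] <;> simp
  have hO : (((x' ^ 2 * k'⁻¹) ^ m : aA x y) : H) ∈ oO x y m :=
    h.mem_O.2 (.inr (hv'.imp_right fun a => .inr a))
  obtain ⟨l₁, a1, a2⟩ := h.exists_lc (K := (zpowers (x ^ 2) ⊔ zpowers y).subgroupOf _) (a := x')
    fun a => by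
      have a1 := (mem_sup_zpowers (mem_No_of_comm (h.y_comm _)) (h.yy ▸ one_mem _)).1
        (mem_subgroupOf.1 a)
      have a2 : x ∉ zpowers (x ^ 2) := fun a2 => by
        have a3 := mem_zpowers_pow_iff.1 a2
        rw [h.ord] at a3
        have := Nat.dvd_gcd (dvd_refl 2) (show 2 ∣ 4 * m by omega)
        omega
      exact a1.elim a2 fun a3 => h.ynm (inv_mem_iff.1 ((mul_mem_cancel_left (mem_zpowers x)).1
        (zpowers_le.2 (npow_mem_zpowers x 2) a3)))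
  have a3 : l₁ y' = 1 := a2 _ (mem_sup_right (mem_zpowers y))
  have a4 : l₁ (x' ^ 2) = 1 := a2 _ (mem_sup_left (mem_zpowers _))
  have a5 : ∀ l : aA x y →* ℂˣ, l y' = 1 → l k' = 1 := fun l a => by
    rcases hk2 with a5 | a5 <;> simp [a5, a]
  have a6 : ∀ l : aA x y →* ℂˣ, l (x' ^ 2) = 1 → l x' = 1 ∨ l x' = -1 := fun l a =>
    (Units.inv_eq_self_iff _).1 (inv_eq_of_mul_eq_one_right (by rw [← map_mul, ← sq, a]))
  obtain ⟨μ, a7, a8⟩ := h.exists_lc (K := zpowers (x' ^ 2 * k'⁻¹)) (a := y') fun ⟨i, a⟩ => by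
    refine h.not_isConj h.snm (_root_.isConj_iff.2 ⟨x ^ i, ?_⟩)
    have a7 : (x ^ 2 * k⁻¹) ^ i = y := congrArg Subtype.val a
    have a8 : Commute (x ^ 2) k⁻¹ := (h.O_comm (inv_mem (mem_sup_right hk)) _)
    rw [h.cj_eq h.snm (zpow_mem x_mem i), h.y_comm s, h.cj_zpow hk h1, ← a7, a8.mul_zpow,
      mul_inv_rev, inv_inv, ← h.O_comm (inv_mem (zpow_mem (mem_sup_right hk) i)), sq,
      (Commute.refl x).mul_zpow, inv_zpow, ← mul_assoc]
  refine ⟨γ, (x' ^ 2 * k'⁻¹) ^ m, l₁, μ, ⟨fun a b => Subtype.ext (h.comm_A a.2 b.2), h.card_A,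
    MulEquiv.ext fun u => Subtype.ext ?_, Subtype.ext ?_, hy, Subtype.ext (h.O_sq hO),
    Subtype.ext h.yy, fun a => ?_, fun a => h.y_ne (congrArg Subtype.val a), fun a => ?_,
    fun a => a1 (by rw [a]; rfl), a3, (hfix _).2 ?_, a7, (hfix _).2 (a8 _ (mem_zpowers _)),
    fun l a => by rw [map_pow, (hfix l).1 a, one_pow], fun l a b => ?_⟩, hc, hv'⟩
  · rw [MulAut.mul_apply, hc, hc, show s * (s * u * s⁻¹) * s⁻¹ = s * s * u * (s * s)⁻¹ by group,
      h.ss]; simp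
  · rw [hc, h.O_comm hO, mul_inv_cancel_right]
  · rw [a] at hv'
    exact hv'.elim (fun b => h.w_ne b.symm) fun b => h.wy_ne b.symm
  · have b : _ * y = 1 := congrArg Subtype.val a
    rcases hv' with c | c <;> rw [c] at b
    · exact h.wy_ne b
    · rw [mul_assoc, h.yy, mul_one] at b; exact h.w_ne b
  · rw [map_mul, map_inv, a4, a5 _ a3]; simp
  · have c := (hfix l).1 a
    rw [map_mul, map_inv, a5 _ b, inv_one, mul_one] at c
    exact (a6 l c).imp (fun d => hext _ _ d b) fun d =>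
      hext _ _ (d.trans ((a6 _ a4).resolve_left a1).symm) (b.trans a3.symm)

omit h in
/-- The second structure on the group of order `16`. -/
theorem swap (h : DY x y s 1) (h1 : s * x * s⁻¹ = x⁻¹ * y) : DY (x * s) (x ^ 2) s 1 ∧
    (x * s) ^ (2 * 1) = y := by
  have : Fact (Nat.Prime 2) := ⟨Nat.prime_two⟩
  have h2 : x * s * (x * s) = y := by
    rw [h.s_inv] at h1
    rw [mul_assoc, ← mul_assoc s, h1, mul_inv_cancel_left]
  have h3 := nm_mul x_mem h.snm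
  have h4 := h.w_comm
  rw [mul_one] at h4
  refine ⟨⟨?_, h.card, h.pow, h.ww, fun h5 => ?_, h4 _, h4 _, h.ss, fun h5 => ?_, .inr ?_⟩,
    by rw [mul_one, sq, h2]⟩
  · exact orderOf_eq_prime_pow (p := 2) (n := 1) (by rw [pow_one, sq, h2]; exact h.y_ne)
      (by rw [show 2 ^ (1 + 1) = 2 * 2 from rfl, pow_mul, sq (x * s), h2, sq, h.yy])
  · rcases mem_zpowers_mul_self_or h5 with h6 | h6 <;> rw [h2] at h6
    · exact h.w_nm h6
    · exact nm_mul (pow_mem x_mem 2) (mt inv_mem_iff.1 h3) (mem_sup_right h6)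
  · have h6 : zpowers (x * s) ⊔ zpowers (x ^ 2) ≤ centralizer {x * s} := sup_le
      (zpowers_le.2 (mem_centralizer_singleton_iff.2 rfl))
      (zpowers_le.2 (mem_centralizer_singleton_iff.2 (h4 _).symm))
    have h7 := mem_centralizer_singleton_iff.1 (h6 h5)
    refine h.x_nm (h.mem_O_of_fix x_mem ?_)
    rw [h.s_inv, mul_assoc, h7, mul_assoc, h.ss, mul_one]
  · rw [mul_inv_rev, h.s_inv, sq, mul_assoc s x⁻¹, inv_mul_cancel_left, mul_assoc, mul_assoc, h.ss,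
      mul_one]

omit h in
theorem isConj_or (h : DY x y s 1) (h1 : s * x * s⁻¹ = x⁻¹ * y) (hu : u ∉ aA x y)
    (hv : v ∉ aA x y) (h2 : u * u = 1) (h3 : v * v = 1) :
    IsConj u v ∨ IsConj (u * x ^ (2 * 1)) v := by
  have h4 := h.mul_inv_mem hv hu
  have h5 : v * u⁻¹ * (s * (v * u⁻¹) * s⁻¹) = 1 := by
    rw [← h.cj_out hu h4, inv_eq_of_mul_eq_one_right h2, ← h3,
      show v * u * (u * (v * u) * u) = v * (u * u) * v * (u * u) by group, h2]; simp
  have h6 : ∀ i : ℤ, x ^ i * (s * x ^ i * s⁻¹) = 1 → x ^ i ∈ oO x y 1 := fun i hi => by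
    rw [h.cj_zpow (mem_zpowers y) h1, mul_inv_cancel_left] at hi
    rcases Int.even_or_odd' i with ⟨j, rfl | rfl⟩
    · rw [zpow_mul, zpow_ofNat]; exact zpow_mem (w_memO (m := 1)) j
    · rw [zpow_add, zpow_mul, zpow_two, h.yy, one_zpow, one_mul, zpow_one] at hi
      exact absurd hi h.y_ne
  have h7 : v * u⁻¹ ∈ oO x y 1 := by
    obtain ⟨i, h7 | h7⟩ := h.exists_A h4 <;> rw [h7] at h5 ⊢
    · exact h6 i h5
    · refine mul_mem (h6 i ?_) y_memO
      rwa [← conj_mul, h.y_comm s, mul_inv_cancel_right, mul_assoc, ← h.y_comm, mul_assoc _ y, h.yy,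
        mul_one] at h5
  have h8 : ∀ a ∉ aA x y, IsConj a (x ^ (2 * 1) * y * a) := fun a ha =>
    _root_.isConj_iff.2 ⟨x, by
      rw [h.cj_eq ha x_mem, h1, mul_inv_rev, inv_inv, h.y_inv, ← h.xy, mul_one, sq, mul_assoc x x]⟩
  rcases h.mem_O.1 h7 with h9 | h9 | h9 | h9 <;> rw [mul_inv_eq_iff_eq_mul] at h9 <;> subst h9
  · exact .inl (by rw [one_mul])
  · exact .inr (by rw [h.w_comm])
  · refine .inr ?_
    have := h8 _ (mul_nm hu (pow_mem x_mem (2 * 1)))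
    rw [h.w_comm u] at this ⊢
    rwa [← mul_assoc, mul_assoc _ y, h.w_comm y, ← mul_assoc, h.ww, one_mul] at this
  · exact .inl (h8 u hu)

variable (h1 : s * x * s⁻¹ = x⁻¹)
include h1

theorem sq_eq_one (hu : u ∉ aA x y) : u * u = 1 := by
  have h2 : ∀ i : ℤ, x ^ i * s * (x ^ i * s) = 1 := fun i => by
    rw [show x ^ i * s * (x ^ i * s) = x ^ i * (s * x ^ i * s⁻¹) * (s * s) by group, h.ss,
      ← conj_zpow, h1]; simp
  obtain ⟨i, h3 | h3⟩ := h.exists_A (h.mul_inv_mem hu h.snm) <;> rw [mul_inv_eq_iff_eq_mul.1 h3]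
  · exact h2 i
  · rw [mul_assoc _ y, ← h.y_comm, ← mul_assoc _ s y, h.mul_y_sq, h2]

/-- A change of generators in `D × C₂`. -/
theorem shift {a b : H} (ha : a ∈ zpowers y) (hb : b ∈ zpowers y) :
    DY (x * a) y (s * b) m ∧ s * b * (x * a) * (s * b)⁻¹ = (x * a)⁻¹ ∧
      (x * a) ^ (2 * m) = x ^ (2 * m) ∧ aA (x * a) y = aA x y := by
  have ca := h.O_comm (mem_sup_right ha)
  have cb := h.O_comm (mem_sup_right hb)
  have aa := h.O_sq (mem_sup_right ha)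
  have h2 : ∀ n, (x * a) ^ (2 * n) = x ^ (2 * n) := fun n => by
    rw [pow_mul, pow_mul, sq, sq, h.mul_O_sq (mem_sup_right ha)]
  have h3 : aA (x * a) y = aA x y := le_antisymm
    (sup_le (zpowers_le.2 (mul_mem x_mem (mem_sup_right ha))) le_sup_right)
    (sup_le (zpowers_le.2 ((mul_mem_cancel_right (mem_sup_right ha)).1 x_mem)) le_sup_right)
  have h4 : s * b * (x * a) * (s * b)⁻¹ = (x * a)⁻¹ := by
    rw [mul_inv_rev x, inv_eq_of_mul_eq_one_right aa, ← ca, ← h1, mul_assoc s, ← cb,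
      mul_assoc (s * x), ca s⁻¹]
    group
  have h5 : orderOf (x * a) = 4 * m := by
    have := h.finite
    have h5 : orderOf ((x * a) ^ 2) = 2 * m := by
      rw [show (x * a) ^ 2 = x ^ 2 from h2 1]
      exact orderOf_pow_of_eq_mul two_ne_zero (by rw [h.ord]; ring)
    have h6 : 2 ∣ orderOf (x * a) := by
      rw [orderOf_pow] at h5
      exact (Dvd.intro _ h5.symm).trans (Nat.div_dvd_of_dvd (Nat.gcd_dvd_left _ _))
    rw [orderOf_pow, Nat.gcd_eq_right h6] at h5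
    omega
  refine ⟨⟨h5, h.card, h.pow, h.yy, fun h6 => ?_, h.y_comm _, h.y_comm _,
    by rw [h.mul_O_sq (mem_sup_right hb), h.ss], ?_, .inl h4⟩, h4, h2 m, h3⟩
  · have h7 := h.card_A
    rw [← h3, aA, sup_eq_left.2 (zpowers_le.2 h6), Nat.card_zpowers, h5] at h7
    have := h.pos
    omega
  · exact fun h6 => mul_nm h.snm (mem_sup_right hb) (h3.le h6)

theorem s_norm : s ∈ normalizer (zpowers x : Set H) := mem_normalizer_zpowers_of_inverts h1

theorem index_D : (zpowers x ⊔ zpowers s).index = 2 := by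
  have h2 := (zpowers x ⊔ zpowers s).card_mul_index
  rw [card_sup_zpowers (h.s_norm h1) (h.ss ▸ one_mem _) fun h3 => h.snm (mem_sup_left h3),
    Nat.card_zpowers, h.ord, h.card] at h2
  exact Nat.eq_of_mul_eq_mul_left (show 0 < 2 * (4 * m) by have := h.pos; omega) (by omega)

theorem y_nm_D : y ∉ zpowers x ⊔ zpowers s := fun h2 =>
  ((mem_sup_zpowers (h.s_norm h1) (h.ss ▸ one_mem _)).1 h2).elim h.ynm fun h3 =>
    nm_mul y_mem (mt inv_mem_iff.1 h.snm) (mem_sup_left h3)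

theorem invol_D (hu : u ∈ zpowers x ⊔ zpowers s) (h2 : u * u = 1) :
    u = 1 ∨ u = x ^ (2 * m) ∨ IsConj s u ∨ IsConj (x * s) u := by
  rcases (mem_sup_zpowers (h.s_norm h1) (h.ss ▸ one_mem _)).1 hu with h3 | ⟨i, h3⟩
  · rw [← or_assoc, ← mem_zpowers_of_mul_self h.ww]
    exact .inl (mem_zpowers_pow_of_pow_eq_one two_ne_zero (by rw [h.ord]; ring) h3 (by rw [sq, h2]))
  have h4 : ∀ j : ℤ, ∀ a ∉ aA x y, IsConj a (x ^ (2 * j) * a) := fun j a ha =>
    _root_.isConj_iff.2 ⟨x ^ j, by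
      rw [h.cj_eq ha (zpow_mem x_mem j), ← conj_zpow, h1, inv_zpow, inv_inv, two_mul, zpow_add]⟩
  obtain rfl : u = x ^ i * s := (eq_mul_inv_iff_mul_eq.1 h3).symm
  rcases Int.even_or_odd' i with ⟨j, rfl | rfl⟩
  · exact .inr (.inr (.inl (h4 j s h.snm)))
  · rw [zpow_add, zpow_one, mul_assoc]
    exact .inr (.inr (.inr (h4 j _ (nm_mul x_mem h.snm))))

end DY

end Cfsg.Agent.H35
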